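import Cfsg.Agent.U45.LocN
import Cfsg.Agent.U45.UCa
import Cfsg.Agent.U3Id.Main
import Cfsg.Agent.Geom.Design

/-!
# The doubly transitive action on the Sylow `p`-subgroups, and `PSU₃(7)`, `PSU₃(9)`
-/

set_option autoImplicit false

namespace Cfsg.Agent.U45

open Subgroup MulAction Cfsg.Agent.Char Cfsg.Agent.Zass Cfsg.Agent.M11 Cfsg.Agent.Local

variable {G : Type*} [Group G] [Finite G]

/-- the permutation character of a doubly transitive action -/
theorem irr_fix_sub_one {Ω : Type*} [MulAction G Ω] [Finite Ω] [IsPretransitive G Ω] {a b : Ω}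
    (hab : a ≠ b) (h2 : ∀ y y' : Ω, y ≠ y' → ∃ g : G, g • a = y ∧ g • b = y') :
    IsIrrCharacter G fun g => (Nat.card (fixedBy Ω g) : ℂ) - 1 := by
  have := Fintype.ofFinite G
  have : Nonempty Ω := ⟨a⟩
  have h1 := Perm1.sum_fixedBy G Ω
  rw [Perm1.card_quotient_eq_one inferInstance, one_mul] at h1
  have h3 := Perm1.sum_fixedBy G (Ω × Ω)
  rw [(Geom.card_orbits_eq_two (G := G) (fun y : Ω × Ω => y.1 = y.2) (fun g y => by simp)
    (a := (a, a)) (b := (a, b)) rfl hab).2 fun y y' e => by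
      by_cases hy : y.1 = y.2
      · obtain ⟨g, hg⟩ := exists_smul_eq G y.1 y'.1
        exact ⟨g, Prod.ext hg (by rw [Prod.smul_snd, ← hy, hg, e.1 hy])⟩
      · obtain ⟨g, g1, g2⟩ := h2 _ _ hy
        obtain ⟨k, k1, k2⟩ := h2 _ _ fun e' => hy (e.2 e')
        exact ⟨k * g⁻¹, Prod.ext (by rw [Prod.smul_fst, ← g1, mul_smul, inv_smul_smul, k1])
          (by rw [Prod.smul_snd, ← g2, mul_smul, inv_smul_smul, k2])⟩] at h3
  simp only [Perm1.card_fixedBy_prod] at h3
  refine irr_of_gen_norm_one (gen_sub (gen_of_char (char_perm Ω)) (gen_of_char char_one')) ?_ ?_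
  · have e1 : ∑ g : G, (Nat.card (fixedBy Ω g) : ℂ) = Nat.card G := by exact_mod_cast h1
    have e3 : ∑ g : G, (Nat.card (fixedBy Ω g) : ℂ) * Nat.card (fixedBy Ω g) = 2 * Nat.card G := by
      exact_mod_cast h3
    have : ∑ g : G, ((Nat.card (fixedBy Ω g) : ℂ) - 1) *
        (starRingEnd ℂ) ((Nat.card (fixedBy Ω g) : ℂ) - 1) = Nat.card G := by
      simp only [map_sub, map_natCast, map_one, sub_mul, mul_sub, one_mul, mul_one,
        Finset.sum_sub_distrib, e1, e3, Finset.sum_const, Finset.card_univ,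
        ← Nat.card_eq_fintype_card, nsmul_eq_mul]
      ring
    rw [classInner, this, inv_mul_cancel₀ (card_ne_zero' G)]
  · have : 1 ≤ Nat.card (fixedBy Ω (1 : G)) := by
      rw [fixedBy_one_eq_univ, Nat.card_univ]; exact Nat.card_pos
    simpa using this

theorem XD.ti {p q : ℕ} [Fact p.Prime] {χ : G → ℤ}
    (hq : (p = 7 ∧ q = 7 ∧ Nat.card G = 5663616) ∨ (p = 3 ∧ q = 9 ∧ Nat.card G = 42573600))
    (h : XD G p q χ) (hn : Nat.card (Sylow p G) = q ^ 3 + 1) {P Q : Sylow p G} {x : G}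
    (hP : x ∈ P) (hQ : x ∈ Q) (h1 : x ≠ 1) : P = Q := by
  have := Fintype.ofFinite (Sylow p G)
  let f : (Σ R : Sylow p G, ↥((R : Set G) \ {1})) → ↥({u : G | PE p u} \ {1}) := fun y =>
    ⟨y.2, pe_of_card (XD.card_syl hq y.1).2.choose_spec y.2.2.1, y.2.2.2⟩
  have hf : Function.Surjective f := by
    rintro ⟨u, hu, u1⟩
    obtain ⟨R, hR⟩ := (PE.pgroup hu).exists_le_sylow
    exact ⟨⟨R, u, hR (mem_zpowers u), u1⟩, rfl⟩
  have hc : ∀ R : Sylow p G, Nat.card ↥((R : Set G) \ {1}) = q ^ 3 - 1 := fun R => by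
    rw [Nat.card_coe_set_eq, Set.ncard_diff_singleton_of_mem (one_mem R), ← (XD.card_syl hq R).1]
    rfl
  have := (hf.bijective_of_nat_card_le (by
    rw [Nat.card_sigma, Nat.card_coe_set_eq, Set.ncard_diff_singleton_of_mem
      (show (1 : G) ∈ {u : G | PE p u} from ⟨0, by simp⟩), h.cntU]
    simp only [hc, Finset.sum_const, Finset.card_univ, ← Nat.card_eq_fintype_card, hn]
    rcases hq with ⟨-, rfl, -⟩ | ⟨-, rfl, -⟩ <;> norm_num)).1
    (a₁ := ⟨P, x, hP, h1⟩) (a₂ := ⟨Q, x, hQ, h1⟩) rfl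
  exact congrArg Sigma.fst this

theorem UC.psu_odd [IsSimpleGroup G] {p q r : ℕ} [Fact p.Prime] {χ St : G → ℤ}
    (hq : (p = 7 ∧ q = 7 ∧ r = 43 ∧ Nat.card G = 5663616) ∨
      (p = 3 ∧ q = 9 ∧ r = 73 ∧ Nat.card G = 42573600))
    (h : UC G r (q * (q - 1)) (q ^ 3) ((q + 1) ^ 2 * (q - 1)) χ St) (hX : XD G p q χ)
    (hn : Nat.card (Sylow p G) = q ^ 3 + 1) {F : Type*} [Field F] [Fintype F]
    (hF : Fintype.card F = q ^ 2) : Nonempty (G ≃* Cfsg.PSU 3 F q) := by
  classical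
  have hq' : (p = 7 ∧ q = 7 ∧ Nat.card G = 5663616) ∨ (p = 3 ∧ q = 9 ∧ Nat.card G = 42573600) := by
    tauto
  have hq1 : q = 7 ∨ q = 9 := by tauto
  obtain ⟨Q⟩ : Nonempty (Sylow p G) := inferInstance
  obtain ⟨hQ, k, hk⟩ := XD.card_syl hq' Q
  have hQa : (Q : Subgroup G) ≤ stabilizer G Q := fun x hx => PSL2Rec.smul_self_of_mem hx
  have hreg : ∀ x ∈ (Q : Subgroup G), ∀ y, y ≠ Q → x • y = y → x = 1 := fun x hx y hy e => by
    by_contra h1
    refine hy (hX.ti hq' hn ?_ hx h1)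
    exact (isSylowIn_top y).le_of_le_normalizer' (pe_of_card hk hx).pgroup le_top
      (zpowers_le.2 (Sylow.smul_eq_iff_mem_normalizer.1 e)) (mem_zpowers x)
  have : Nontrivial (Sylow p G) := Finite.one_lt_card_iff_nontrivial.1 (by
    rw [hn]; rcases hq1 with rfl | rfl <;> norm_num)
  obtain ⟨b, hb⟩ := exists_ne Q
  have hne : ∀ x ∈ (Q : Subgroup G), x • b ≠ Q := fun x hx e =>
    hb (by rw [← inv_smul_smul x b, e]; exact hQa (inv_mem hx))
  have hex : ∀ y, y ≠ Q → ∃ x ∈ (Q : Subgroup G), x • b = y := fun y hy => by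
    obtain ⟨x, hx⟩ := (Function.Injective.bijective_of_nat_card_le
      (f := fun x : (Q : Subgroup G) => (⟨(x : G) • b, hne x x.2⟩ : ↥({Q}ᶜ : Set (Sylow p G))))
      (fun x x' e => Subtype.ext (inv_mul_eq_one.1 (hreg _ (mul_mem (inv_mem x.2) x'.2) b hb (by
        rw [mul_smul, ← show (x : G) • b = (x' : G) • b from congrArg Subtype.val e,
          inv_smul_smul])))) (by
        have := Set.ncard_add_ncard_compl ({Q} : Set (Sylow p G))
        rw [Nat.card_coe_set_eq, hQ]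
        rw [hn, Set.ncard_singleton] at this
        omega)).2 ⟨y, hy⟩
    exact ⟨x, x.2, congrArg Subtype.val hx⟩
  have hirr := irr_fix_sub_one (G := G) hb.symm fun y y' hy => by
    obtain ⟨g, rfl⟩ := exists_smul_eq G Q y
    obtain ⟨x, hx, e⟩ := hex (g⁻¹ • y') fun e => hy (by rw [← e, smul_inv_smul])
    exact ⟨g * x, by rw [mul_smul, mem_stabilizer_iff.1 (hQa hx)], by rw [mul_smul, e, smul_inv_smul]⟩
  have hSt := h.uniq _ hirr (deg_of_eq (by
    simp only [fixedBy_one_eq_univ, Nat.card_univ, hn]; push_cast; ring))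
  have := Fintype.ofFinite (Q : Subgroup G)
  refine U3Id.ident (Ω := Sylow p G) hq1 hF ?_ hn Q Q hQ hQa
    (fun g hg x hx => conj_mem_of_mem_normalizer (Sylow.smul_eq_iff_mem_normalizer.1 hg) hx) hreg
    (fun g => χ g) (irr_isCharacter h.irr1) ?_ (fun g hg => ?_) ?_
  · rcases hq with ⟨-, rfl, -, e⟩ | ⟨-, rfl, -, e⟩ <;> rw [e] <;> norm_num
  · simp only [h.deg1]
    rcases hq1 with rfl | rfl <;> norm_num
  · obtain ⟨l, hl, l1, l2⟩ := Nat.Prime.not_coprime_iff_dvd.1 hg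
    obtain ⟨ψ, hψ, hd, hv⟩ := h.exc
    have hr : ¬ r ∣ orderOf g := fun e => hg (by
      rw [ord_eq h.ccr e]
      rcases hq with ⟨-, rfl, rfl, -⟩ | ⟨-, rfl, rfl, -⟩ <;> norm_num)
    have h0 : ψ g = 0 := PSL2Rec.irr_eq_zero_of_dvd (B := q ^ 3 * r) hψ hl (by
      rcases hq with ⟨-, rfl, rfl, e⟩ | ⟨-, rfl, rfl, e⟩ <;> rw [e] <;> norm_num) hd.symm.dvd
      (fun e => hl.not_dvd_one ((Nat.dvd_gcd l2 e).trans (by
        rcases hq with ⟨-, rfl, rfl, -⟩ | ⟨-, rfl, rfl, -⟩ <;> norm_num))) l1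
    have h1 := congrFun hSt g
    rw [hv g hr] at h0
    push_cast at h0
    linear_combination h0 + h1
  · have h1 : ∀ x : (Q : Subgroup G), (χ x : ℂ) * χ (x : G)⁻¹ =
        (if x = 1 then ((q : ℂ) * (q - 1)) ^ 2 else 0) + if χ x = -q then (q : ℂ) ^ 2 else 0 := by
      intro x
      have := char_apply_inv (irr_isCharacter h.irr1) (x : G)
      simp only [map_intCast] at this
      rw [this]
      by_cases x1 : x = 1
      · simp only [x1, OneMemClass.coe_one, h.deg1]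
        rcases hq1 with rfl | rfl <;> norm_num
      · rcases hX.val x (fun e => x1 (Subtype.ext e)) (pe_of_card hk x.2) with e | ⟨e, -⟩
        · simp [x1, e, sq]
        · rcases hq1 with rfl | rfl <;> simp [x1, e]
    have h2 : (Finset.univ.filter fun x : (Q : Subgroup G) => χ x = -q).card = q - 1 := by
      rw [← hX.syl Q hQ, ← Set.ncard_coe_finset, ← Set.ncard_image_of_injective _ Subtype.val_injective]
      congr 1
      ext u
      simp [and_comm]
    simp only [h1, Finset.sum_add_distrib, Finset.sum_ite_eq', Finset.mem_univ, if_true]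
    rw [← Finset.sum_filter, Finset.sum_const, h2]
    rcases hq1 with rfl | rfl <;> norm_num

end Cfsg.Agent.U45
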