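import Cfsg.Agent.U3Id.Form

/-!
# The order and the normal subgroups of `PSU₃(q)`
-/

set_option autoImplicit false

namespace Cfsg.Agent.U45

open Cfsg Cfsg.Agent.Amalg Cfsg.Agent.U3Id Subgroup Matrix

section Aux

variable {E : Type*} [Field E] [Fintype E] {q : ℕ} [Fact (Fintype.card E = q ^ 2)]

theorem psu_exP : ∃ P Pi : Matrix (Fin 3) (Fin 3) E, P * Pi = 1 ∧ Pi * P = 1 ∧
      ∀ u v, hf q (P *ᵥ u) (P *ᵥ v) = hB q u v := by
  obtain ⟨c, hc⟩ := exists_norm_eq q (s := (-1 : E)) (by simp)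
  obtain ⟨l, hl⟩ := exists_trace_eq q (s := (1 : E)) (map_one _)
  have hc0 : c ≠ 0 := by rintro rfl; simp at hc
  have h1 : !![1, 0, l; 0, c, 0; c, 0, c * (l - 1)] * !![1 - l, 0, l * c⁻¹; 0, c⁻¹, 0; 1, 0, -c⁻¹] =
      (1 : Matrix (Fin 3) (Fin 3) E) := by
    ext i j
    fin_cases i <;> fin_cases j <;> simp [Matrix.mul_apply, Fin.sum_univ_three, hc0] <;>
      field_simp <;> ring
  refine ⟨_, _, h1, mul_eq_one_comm.1 h1, fun u v => ?_⟩
  simp only [hf, hB, Fin.sum_univ_three, mulVec, dotProduct]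
  simp
  linear_combination (u 0 * cj q (v 0) + (cj q l - 1) * u 0 * cj q (v 2) +
    (l - 1) * u 2 * cj q (v 0) + (l - 1) * (cj q l - 1) * u 2 * cj q (v 2) + u 1 * cj q (v 1)) * hc +
    u 2 * cj q (v 2) * hl

/-- `SU₃(q)` in hyperbolic coordinates -/
structure Rh (ρ : SU 3 E q →* Matrix (Fin 3) (Fin 3) E) : Prop where
  inj : Function.Injective ρ
  det : ∀ A, (ρ A).det = 1
  form : ∀ A u v, hB q (ρ A *ᵥ u) (ρ A *ᵥ v) = hB q u v
  surj : ∀ M : Matrix (Fin 3) (Fin 3) E, M.det = 1 →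
    (∀ u v, hB q (M *ᵥ u) (M *ᵥ v) = hB q u v) → ∃ A, ρ A = M
  cen : ∀ A, A ∈ center (SU 3 E q) ↔ ∃ l : E, ∀ v, ρ A *ᵥ v = l • v

theorem exists_Rh : ∃ ρ : SU 3 E q →* Matrix (Fin 3) (Fin 3) E, Rh ρ := by
  obtain ⟨P, Pi, h1, h1', hP⟩ := psu_exP (E := E) (q := q)
  have hd : P.det * Pi.det = 1 := by rw [← det_mul, h1, det_one]
  have hv : ∀ v, P *ᵥ (Pi *ᵥ v) = v := fun v => by rw [mulVec_mulVec, h1, one_mulVec]
  have hv' : ∀ v, Pi *ᵥ (P *ᵥ v) = v := fun v => by rw [mulVec_mulVec, h1', one_mulVec]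
  let ρ : SU 3 E q →* Matrix (Fin 3) (Fin 3) E :=
    { toFun := fun A => Pi * suM A * P
      map_one' := by rw [suM_one, mul_one, h1']
      map_mul' := fun A B => by
        rw [suM_mul]
        calc Pi * (suM A * suM B) * P = Pi * suM A * (P * Pi) * suM B * P := by
              rw [h1]; simp only [mul_one, mul_assoc]
          _ = _ := by simp only [mul_assoc] }
  have hρ : ∀ A v, ρ A *ᵥ v = Pi *ᵥ (A • (P *ᵥ v)) := fun A v => by
    rw [su_smul_def, mulVec_mulVec, mulVec_mulVec]; rfl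
  refine ⟨ρ, fun A B e => ?_, fun A => ?_, fun A u v => ?_, fun M hM hB => ?_,
    fun A => ⟨fun h => ?_, ?_⟩⟩
  · refine su_ext_vec fun v => ?_
    have := congrArg (fun M => P *ᵥ (M *ᵥ (Pi *ᵥ v))) e
    simpa only [hρ, hv] using this
  · change (Pi * suM A * P).det = 1
    rw [det_mul, det_mul, suM_det]
    linear_combination hd
  · rw [← hP, hρ, hρ, hv, hv, hf_smul_smul, hP]
  · refine ⟨⟨⟨P * M * Pi, ?_⟩, fun u v => ?_⟩, ?_⟩
    · rw [det_mul, det_mul, hM]; linear_combination hd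
    · change hf q ((P * M * Pi) *ᵥ u) ((P * M * Pi) *ᵥ v) = hf q u v
      rw [← mulVec_mulVec, ← mulVec_mulVec, ← mulVec_mulVec, ← mulVec_mulVec, hP, hB, ← hP, hv, hv]
    · change Pi * (P * M * Pi) * P = M
      calc _ = (Pi * P) * M * (Pi * P) := by simp only [mul_assoc]
        _ = M := by rw [h1', one_mul, mul_one]
  · obtain ⟨l, hl⟩ := center_scalar3 h
    exact ⟨l, fun v => by rw [hρ, hl, mulVec_smul, hv']⟩
  · rintro ⟨l, hl⟩
    rw [mem_center_iff]
    intro B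
    refine (scalar_comm (l := l) (fun v => ?_) B).symm
    have := congrArg (P *ᵥ ·) (hl (Pi *ᵥ v))
    simpa only [hρ, hv, mulVec_smul] using this

theorem psu_scalar_of {M : Matrix (Fin 3) (Fin 3) E}
    (h1 : ∃ c : E, M *ᵥ ![0, 0, 1] = c • ![0, 0, 1])
    (h0 : ∀ p y : E, y + cj q y = p * cj q p → ∃ c : E, M *ᵥ ![1, p, y] = c • ![1, p, y]) :
    ∃ l : E, ∀ v, M *ᵥ v = l • v := by
  obtain ⟨c, hc⟩ := h1
  obtain ⟨e, he⟩ := exists_cj_ne (F := E) q
  have hδ : e - cj q e ≠ 0 := fun h => he (sub_eq_zero.1 h).symm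
  have hδ' : e - cj q e + cj q (e - cj q e) = 0 := by simp [cj_cj]
  generalize e - cj q e = δ at hδ hδ'
  obtain ⟨y, hy⟩ := exists_trace_eq q (s := (1 : E)) (map_one _)
  obtain ⟨c1, h1⟩ := h0 0 0 (by simp)
  obtain ⟨c2, h2'⟩ := h0 0 δ (by simpa using hδ')
  obtain ⟨c3, h3⟩ := h0 1 y (by simpa using hy)
  obtain ⟨c4, h4⟩ := h0 1 (y + δ) (by simp; linear_combination hy + hδ')
  have k := fun i => congrFun hc i
  have k1 := fun i => congrFun h1 i
  have k2 := fun i => congrFun h2' i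
  have k3 := fun i => congrFun h3 i
  have k4 := fun i => congrFun h4 i
  simp only [mulVec, dotProduct, Fin.sum_univ_three] at k k1 k2 k3 k4
  have a00 : M 0 0 = c1 := by simpa using k1 0
  have a10 : M 1 0 = 0 := by simpa using k1 1
  have a20 : M 2 0 = 0 := by simpa using k1 2
  have a02 : M 0 2 = 0 := by simpa using k 0
  have a12 : M 1 2 = 0 := by simpa using k 1
  have a22 : M 2 2 = c := by simpa using k 2
  have e1 : c1 = c2 := by simpa [a00, a02] using k2 0
  have e2 : c = c2 := by simpa [a20, a22, hδ] using k2 2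
  have f0 : c1 + M 0 1 = c3 := by simpa [a00, a02] using k3 0
  have f1 : M 1 1 = c3 := by simpa [a10, a12] using k3 1
  have f2 : M 2 1 + c * y = c3 * y := by simpa [a20, a22] using k3 2
  have g1 : M 1 1 = c4 := by simpa [a10, a12] using k4 1
  have g2 : M 2 1 + c * (y + δ) = c4 * (y + δ) := by simpa [a20, a22] using k4 2
  have e3 : c3 = c := by
    apply mul_right_cancel₀ hδ
    linear_combination f2 - g2 + (y + δ) * (g1 - f1)
  have a01 : M 0 1 = 0 := by linear_combination f0 + e3 + e2 - e1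
  have a21 : M 2 1 = 0 := by linear_combination f2 + y * e3
  refine ⟨c, fun v => ?_⟩
  have : M = c • (1 : Matrix (Fin 3) (Fin 3) E) := by
    ext i j
    fin_cases i <;> fin_cases j <;> simp [a00, a10, a20, a02, a12, a22, a01, a21, f1, e3, e1, e2]
  rw [this, smul_mulVec, one_mulVec]

variable (E q) in
/-- the affine isotropic points -/
abbrev IsoP := {x : E × E // x.2 + cj q x.2 = x.1 * cj q x.1}

theorem card_IsoP : Nat.card (IsoP E q) = q ^ 3 := by
  let T : E →+ E := AddMonoidHom.id E + (cj q : E →+* E).toAddMonoidHom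
  have hT : ∀ y, T y = y + cj q y := fun _ => rfl
  obtain ⟨e, he⟩ := exists_cj_ne (F := E) q
  have hδ : e - cj q e ≠ 0 := fun h => he (sub_eq_zero.1 h).symm
  have hδ' : cj q (e - cj q e) = -(e - cj q e) := by simp [cj_cj]
  generalize e - cj q e = δ at hδ hδ'
  have h1 : Nat.card T.ker = Nat.card T.range := by
    refine Nat.card_congr ((Equiv.mulRight₀ δ hδ).subtypeEquiv fun y => ?_)
    rw [AddMonoidHom.mem_ker, hT]
    refine ⟨fun h => exists_trace_eq q ?_, ?_⟩
    · simp only [Equiv.mulRight₀_apply, map_mul, hδ']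
      linear_combination -δ * h
    · rintro ⟨l, hl⟩
      have := congrArg (cj q) hl
      rw [hT] at this hl
      simp only [Equiv.mulRight₀_apply, map_mul, map_add, hδ', cj_cj] at this hl
      apply mul_right_cancel₀ hδ
      linear_combination this - hl
  have h2 := T.ker.card_mul_index
  rw [AddSubgroup.index_ker, ← h1, Nat.card_eq_fintype_card (α := E),
    Fact.out (p := Fintype.card E = q ^ 2), sq] at h2
  have h3 : Nat.card T.ker = q := Nat.mul_self_inj.1 h2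
  choose l hl using fun p : E => exists_trace_eq q (s := p * cj q p) (by simp [cj_cj, mul_comm])
  let f : IsoP E q ≃ E × T.ker :=
    { toFun := fun x => (x.1.1, ⟨x.1.2 - l x.1.1, by
        rw [AddMonoidHom.mem_ker, hT, map_sub]; linear_combination x.2 - hl x.1.1⟩)
      invFun := fun x => ⟨(x.1, x.2 + l x.1), by
        have := x.2.2
        rw [AddMonoidHom.mem_ker, hT] at this
        simp only [map_add]; linear_combination this + hl x.1⟩
      left_inv := fun x => by simp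
      right_inv := fun x => by simp }
  rw [Nat.card_congr f, Nat.card_prod, h3, Nat.card_eq_fintype_card,
    Fact.out (p := Fintype.card E = q ^ 2)]
  ring

/-- the isotropic points -/
def isoV : Option (IsoP E q) → Fin 3 → E
  | none => ![0, 0, 1]
  | some x => ![1, x.1.1, x.1.2]

theorem isoV_inj {s t : Option (IsoP E q)} {c d : E} (hc : c ≠ 0) (e : c • isoV s = d • isoV t) :
    s = t ∧ c = d := by
  have e0 := congrFun e 0
  have e1 := congrFun e 1
  have e2 := congrFun e 2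
  rcases s with _ | s <;> rcases t with _ | t <;> simp only [isoV] at e0 e1 e2
  · exact ⟨rfl, by simpa using e2⟩
  · have : d = 0 := by simpa [eq_comm] using e0
    simp [this, hc] at e2
  · simp [hc] at e0
  · have : c = d := by simpa using e0
    subst this
    exact ⟨congrArg some (Subtype.ext (Prod.ext (by simpa [hc] using e1) (by simpa [hc] using e2))), rfl⟩

namespace Rh

variable {ρ : SU 3 E q →* Matrix (Fin 3) (Fin 3) E} (h : Rh ρ)
include h

theorem exU (x : IsoP E q) : ∃ A, ρ A = !![1, 0, 0; x.1.1, 1, 0; x.1.2, cj q x.1.1, 1] :=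
  h.surj _ (by simp [det_fin_three]) fun u w => by
    simp only [hB, mulVec, dotProduct, Fin.sum_univ_three]
    simp [cj_cj]
    linear_combination u 0 * cj q (w 0) * x.2

theorem exW : ∃ A, ρ A = !![0, 0, 1; 0, -1, 0; 1, 0, 0] :=
  h.surj _ (by simp [det_fin_three]) fun u w => by
    simp only [hB, mulVec, dotProduct, Fin.sum_univ_three]
    simp
    ring

theorem exD {c : E} (hc : c ≠ 0) : ∃ A, ρ A *ᵥ ![0, 0, 1] = c • ![0, 0, 1] := by
  have hc' : cj q c ≠ 0 := by simpa using hc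
  obtain ⟨A, hA⟩ := h.surj !![(cj q c)⁻¹, 0, 0; 0, cj q c * c⁻¹, 0; 0, 0, c]
    (by simp [det_fin_three]; field_simp) fun u w => by
      simp only [hB, mulVec, dotProduct, Fin.sum_univ_three]
      simp [cj_cj]
      field_simp
  exact ⟨A, by rw [hA]; ext i; fin_cases i <;> simp [mulVec, dotProduct, Fin.sum_univ_three]⟩

omit h in
theorem inv_vec {A : SU 3 E q} {v w : Fin 3 → E} (e : ρ A *ᵥ v = w) : ρ A⁻¹ *ᵥ w = v := by
  rw [← e, mulVec_mulVec, ← map_mul, inv_mul_cancel, map_one, one_mulVec]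

theorem pt (A : SU 3 E q) (s : Option (IsoP E q)) :
    ∃ t : Option (IsoP E q), ∃ c : E, c ≠ 0 ∧ ρ A *ᵥ isoV s = c • isoV t := by
  have h0 : hB q (isoV s) (isoV s) = 0 := by
    rcases s with _ | s
    · simp [isoV, hB]
    · simp only [isoV, hB]; simp; linear_combination s.2
  have hc : ∀ (c : E) w, ρ A *ᵥ isoV s = c • w → c ≠ 0 := by
    rintro _ w e rfl
    have := inv_vec e
    rw [zero_smul, mulVec_zero] at this
    exact one_ne_zero (isoV_inj (s := s) (t := s) (d := 0) one_ne_zero (by rw [← this]; simp)).2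
  rcases iso_cases ((h.form A _ _).trans h0) with ⟨c, e⟩ | ⟨c, p, y, hy, e⟩
  · exact ⟨none, c, hc _ _ e, e⟩
  · exact ⟨some ⟨(p, y), hy⟩, c, hc _ _ e, e⟩

theorem trans (t : Option (IsoP E q)) {c : E} (hc : c ≠ 0) :
    ∃ A, ρ A *ᵥ ![0, 0, 1] = c • isoV t := by
  obtain ⟨D, hD⟩ := h.exD hc
  rcases t with _ | x
  · exact ⟨D, hD⟩
  obtain ⟨U, hU⟩ := h.exU x
  obtain ⟨W, hW⟩ := h.exW
  refine ⟨U * W * D, ?_⟩
  rw [map_mul, map_mul, ← mulVec_mulVec, ← mulVec_mulVec, hD, hU, hW]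
  ext i; fin_cases i <;> simp [isoV, mulVec, dotProduct, Fin.sum_univ_three, mul_comm]

theorem card_su : Nat.card (SU 3 E q) = (q ^ 2 - 1) * (q ^ 3 + 1) * q ^ 3 := by
  classical
  let inst : MulAction (SU 3 E q) (Fin 3 → E) :=
    { smul := fun A v => ρ A *ᵥ v
      one_smul := fun v => by change ρ 1 *ᵥ v = v; simp
      mul_smul := fun A B v => by change ρ (A * B) *ᵥ v = ρ A *ᵥ ρ B *ᵥ v; simp }
  rw [← Nat.card_congr (@MulAction.orbitProdStabilizerEquivGroup _ _ _ inst ![0, 0, 1]),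
    Nat.card_prod]
  congr 1
  · have : Nat.card (Eˣ × Option (IsoP E q)) = (q ^ 2 - 1) * (q ^ 3 + 1) := by
      rw [Nat.card_prod, Nat.card_units, Finite.card_option, card_IsoP, Nat.card_eq_fintype_card,
        Fact.out (p := Fintype.card E = q ^ 2)]
    rw [← this]
    refine (Nat.card_congr (Equiv.ofBijective (fun x => ⟨(x.1 : E) • isoV x.2,
      h.trans x.2 x.1.ne_zero⟩) ⟨fun x y e => ?_, ?_⟩)).symm
    · have := isoV_inj x.1.ne_zero (congrArg Subtype.val e)
      exact Prod.ext (Units.ext this.2) this.1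
    · rintro ⟨_, A, rfl⟩
      obtain ⟨t, c, hc, e⟩ := h.pt A none
      exact ⟨(Units.mk0 c hc, t), Subtype.ext e.symm⟩
  · choose U hU using h.exU
    have h2 : ∀ x, ρ (U x) *ᵥ ![0, 0, 1] = ![0, 0, 1] := fun x => by
      rw [hU]; ext i; fin_cases i <;> simp [mulVec, dotProduct, Fin.sum_univ_three]
    have h0 : ∀ x, ρ (U x) *ᵥ ![1, 0, 0] = isoV (some x) := fun x => by
      rw [hU]; ext i; fin_cases i <;> simp [isoV, mulVec, dotProduct, Fin.sum_univ_three]
    rw [← card_IsoP (E := E)]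
    refine (Nat.card_congr (Equiv.ofBijective (fun x => ⟨U x, h2 x⟩) ⟨fun x y e => ?_, ?_⟩)).symm
    · have := h0 x
      rw [show U x = U y from congrArg Subtype.val e, h0] at this
      exact Option.some.inj (isoV_inj (c := 1) (d := 1) one_ne_zero (by rw [this])).1.symm
    · rintro ⟨A, hA⟩
      replace hA : ρ A *ᵥ ![0, 0, 1] = ![0, 0, 1] := hA
      obtain ⟨t, c, hc, e⟩ := h.pt A (some ⟨(0, 0), by simp⟩)
      replace e : ρ A *ᵥ ![1, 0, 0] = c • isoV t := e
      rcases t with _ | x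
      · have := inv_vec (w := c • ![0, 0, 1]) e
        rw [mulVec_smul, inv_vec hA] at this
        simpa using congrFun this 0
      refine ⟨x, Subtype.ext (inv_mul_eq_one.1 (h.inj ?_))⟩
      refine diag_eq (q := q) (c := 1) (b := c) (b' := 1) (h.det _) (h.det _) (h.form _) (h.form _)
        ?_ ?_ (by simp) (by simp)
      · rw [map_mul, ← mulVec_mulVec, hA, inv_vec (h2 x), one_smul]
      · rw [map_mul, ← mulVec_mulVec, e, mulVec_smul, inv_vec (h0 x)]

theorem card_center : Nat.card (center (SU 3 E q)) = Nat.gcd 3 (q + 1) := by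
  have h2 := two_le_uq (F := E) q
  have hd : Nat.card (powMonoidHom (Nat.gcd 3 (q + 1)) : Eˣ →* Eˣ).ker = Nat.gcd 3 (q + 1) := by
    rw [IsCyclic.card_powMonoidHom_ker, Nat.card_units, Nat.card_eq_fintype_card,
      Fact.out (p := Fintype.card E = q ^ 2)]
    exact Nat.gcd_eq_right ((Nat.gcd_dvd_right _ _).trans ⟨q - 1, by
      rw [← Nat.sq_sub_sq]⟩)
  have ex : ∀ l : (powMonoidHom (Nat.gcd 3 (q + 1)) : Eˣ →* Eˣ).ker,
      ∃ A, ρ A = ((l : Eˣ) : E) • (1 : Matrix (Fin 3) (Fin 3) E) := fun l => by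
    have hl := pow_gcd_eq_one.1 l.2
    have l3 : ((l : Eˣ) : E) ^ 3 = 1 := by rw [← Units.val_pow_eq_pow_val, hl.1, Units.val_one]
    have lq : ((l : Eˣ) : E) * cj q ((l : Eˣ) : E) = 1 := by
      rw [cj_apply, ← pow_succ', ← Units.val_pow_eq_pow_val, hl.2, Units.val_one]
    refine h.surj _ (by simp [l3]) fun u v => ?_
    simp only [smul_mulVec, one_mulVec, hB, Pi.smul_apply, smul_eq_mul, map_mul]
    linear_combination (u 0 * cj q (v 2) + u 2 * cj q (v 0) - u 1 * cj q (v 1)) * lq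
  choose f hf using ex
  rw [← hd]
  refine (Nat.card_congr (Equiv.ofBijective (fun l => ⟨f l, (h.cen _).2 ⟨_, fun v => by
    rw [hf, smul_mulVec, one_mulVec]⟩⟩) ⟨fun x y e => ?_, ?_⟩)).symm
  · have := hf x
    rw [show f x = f y from congrArg Subtype.val e, hf] at this
    exact Subtype.ext (Units.ext (by simpa using (congrFun (congrFun this 0) 0).symm))
  · rintro ⟨A, hA⟩
    obtain ⟨l, hl⟩ := (h.cen A).1 hA
    have e : ρ A = l • (1 : Matrix (Fin 3) (Fin 3) E) :=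
      ext_of_mulVec_single fun i => by rw [hl, smul_mulVec, one_mulVec]
    have l3 : l ^ 3 = 1 := by simpa [e] using h.det A
    have lq : l ^ (q + 1) = 1 := by
      simpa [hl, hB, cj_apply, pow_succ'] using h.form A ![1, 0, 0] ![0, 0, 1]
    have l0 : l ≠ 0 := by rintro rfl; simp at l3
    exact ⟨⟨Units.mk0 l l0, pow_gcd_eq_one.2 ⟨Units.ext l3, Units.ext lq⟩⟩,
      Subtype.ext (h.inj (by rw [hf, e]; rfl))⟩

theorem normal (K : Subgroup (SU 3 E q)) [hK : K.Normal] {A : SU 3 E q} (hA : A ∈ K)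
    (hZ : A ∉ center (SU 3 E q)) (t : Option (IsoP E q)) :
    ∃ B ∈ K, ∃ c : E, c ≠ 0 ∧ ρ B *ᵥ ![0, 0, 1] = c • isoV t := by
  rcases t with _ | y
  · exact ⟨1, one_mem _, 1, one_ne_zero, by simp [isoV]⟩
  obtain ⟨s, hs⟩ : ∃ s : Option (IsoP E q), ¬ ∃ c : E, ρ A *ᵥ isoV s = c • isoV s := by
    by_contra hn
    push Not at hn
    exact hZ ((h.cen A).2 (psu_scalar_of (q := q) (hn none) fun p y hy => hn (some ⟨(p, y), hy⟩)))
  obtain ⟨g, hg⟩ := h.trans s one_ne_zero
  rw [one_smul] at hg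
  obtain ⟨t, c, hc, e⟩ := h.pt (g⁻¹ * A * g⁻¹⁻¹) none
  have hA' := hK.conj_mem A hA g⁻¹
  rcases t with _ | x
  · refine absurd ⟨c, ?_⟩ hs
    change ρ _ *ᵥ ![0, 0, 1] = c • ![0, 0, 1] at e
    rw [inv_inv, map_mul, map_mul, ← mulVec_mulVec, ← mulVec_mulVec, hg] at e
    have := inv_vec e
    rwa [inv_inv, mulVec_smul, hg, eq_comm] at this
  obtain ⟨U, hU⟩ := h.exU x
  obtain ⟨V, hV⟩ := h.exU y
  have h2 : ∀ {x : IsoP E q} {U}, ρ U = !![1, 0, 0; x.1.1, 1, 0; x.1.2, cj q x.1.1, 1] →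
      ρ U *ᵥ ![0, 0, 1] = ![0, 0, 1] ∧ ρ U *ᵥ ![1, 0, 0] = isoV (some x) := fun hU => by
    rw [hU]
    constructor <;> ext i <;> fin_cases i <;> simp [isoV, mulVec, dotProduct, Fin.sum_univ_three]
  refine ⟨_, hK.conj_mem _ hA' (V * U⁻¹), c, hc, ?_⟩
  change ρ _ *ᵥ ![0, 0, 1] = _ at e
  generalize g⁻¹ * A * g⁻¹⁻¹ = B at e
  rw [_root_.mul_inv_rev, inv_inv]
  simp only [map_mul, ← mulVec_mulVec]
  rw [inv_vec (h2 hV).1, (h2 hU).1, e, mulVec_smul, inv_vec (h2 hU).2, mulVec_smul, (h2 hV).2]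

end Rh

end Aux

theorem card_psu3 {F : Type*} [Field F] [Fintype F] {q : ℕ} (hF : Fintype.card F = q ^ 2) :
    Nat.gcd 3 (q + 1) * Nat.card (Cfsg.PSU 3 F q) = q ^ 3 * (q ^ 3 + 1) * (q ^ 2 - 1) := by
  have := Fact.mk hF
  obtain ⟨ρ, h⟩ := exists_Rh (E := F) (q := q)
  rw [← h.card_center, mul_comm, ← card_eq_card_quotient_mul_card_subgroup, h.card_su]
  ring

theorem psu3_normal {F : Type*} [Field F] [Fintype F] {q : ℕ} (hF : Fintype.card F = q ^ 2)
    (K : Subgroup (Cfsg.PSU 3 F q)) [K.Normal] (hK : K ≠ ⊥) : q ^ 3 + 1 ≤ Nat.card K ∨ q ≤ 2 := by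
  have := Fact.mk hF
  obtain ⟨ρ, h⟩ := exists_Rh (E := F) (q := q)
  obtain ⟨⟨a, ha⟩, h1⟩ := ne_bot_iff_exists_ne_one.1 hK
  obtain ⟨A, rfl⟩ := QuotientGroup.mk_surjective a
  choose B hB c hc e using h.normal (K.comap (QuotientGroup.mk' _)) (A := A) ha
    fun hZ => h1 (Subtype.ext ((QuotientGroup.eq_one_iff A).2 hZ))
  left
  rw [← card_IsoP (E := F), ← Finite.card_option]
  refine Nat.card_le_card_of_injective (fun t => ⟨B t, hB t⟩) fun s t hst => ?_
  obtain ⟨l, hl⟩ := (h.cen _).1 (QuotientGroup.eq.1 (congrArg Subtype.val hst))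
  have := hl ![0, 0, 1]
  rw [map_mul, ← mulVec_mulVec, e t] at this
  have := Rh.inv_vec this
  rw [inv_inv, mulVec_smul, e s, smul_smul] at this
  exact (isoV_inj (hc t) this.symm).1.symm

theorem su_map {K K' : Type*} [Field K] [Field K'] {n q : ℕ} (φ : K ≃+* K') (A : SU n K q) :
    SpecialLinearGroup.map φ.toRingHom A.1 ∈ SU n K' q := fun u v => by
  obtain ⟨u, rfl⟩ : ∃ u' : Fin n → K, φ ∘ u' = u := ⟨φ.symm ∘ u, by ext; simp⟩
  obtain ⟨v, rfl⟩ : ∃ v' : Fin n → K, φ ∘ v' = v := ⟨φ.symm ∘ v, by ext; simp⟩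
  have h1 : ∀ u v : Fin n → K, hermForm n K' q (φ ∘ u) (φ ∘ v) = φ (hermForm n K q u v) :=
    fun u v => by simp [hermForm]
  have h2 : ∀ u : Fin n → K, slToMat n K' (SpecialLinearGroup.map φ.toRingHom A.1) *ᵥ (φ ∘ u) =
      φ ∘ (slToMat n K A.1 *ᵥ u) := fun u => by
    ext i; simp [mulVec, dotProduct]
  rw [h2, h2, h1, h1, A.2]

theorem psu_congr {F F' : Type*} [Field F] [Fintype F] [Field F'] [Fintype F'] (n q : ℕ)
    (h : Fintype.card F = Fintype.card F') : Nonempty (Cfsg.PSU n F q ≃* Cfsg.PSU n F' q) := by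
  let φ := FiniteField.ringEquivOfCardEq h
  let e : SU n F q ≃* SU n F' q :=
    MonoidHom.toMulEquiv
      (((SpecialLinearGroup.map φ.toRingHom).comp (SU n F q).subtype).codRestrict _ (su_map φ))
      (((SpecialLinearGroup.map φ.symm.toRingHom).comp (SU n F' q).subtype).codRestrict _
        (su_map φ.symm))
      (by ext; exact φ.symm_apply_apply _) (by ext; exact φ.apply_symm_apply _)
  refine ⟨QuotientGroup.congr _ _ e ?_⟩
  ext x
  refine mem_map_equiv.trans ?_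
  rw [mem_center_iff, mem_center_iff]
  exact ⟨fun h1 y => e.symm.injective (by rw [map_mul, map_mul, h1]),
    fun h1 y => e.injective (by rw [map_mul, map_mul, e.apply_symm_apply, h1])⟩

end Cfsg.Agent.U45
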