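import Cfsg.Agent.U45.Loc8
import Cfsg.Agent.U45.Psu
import Cfsg.Agent.Bender.General
import Cfsg.Agent.Suz2T.Main
import Cfsg.Agent.FT.Final

/-!
# Identification of `PSU₃(8)`
-/

set_option autoImplicit false

namespace Cfsg.Agent.U45

open Subgroup Cfsg.Agent.Bender

variable {G : Type*} [Group G] [Finite G]

theorem XD.psu8 [IsSimpleGroup G] {χ : G → ℤ} (hG : Nat.card G = 5515776) (h : XD G 2 8 χ)
    {F : Type*} [Field F] [Fintype F] (hF : Fintype.card F = 8 ^ 2) :
    Nonempty (G ≃* Cfsg.PSU 3 F 8) := by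
  have := Fact.mk Nat.prime_two
  obtain ⟨M, hM, h1, h2, u, v, ou, ov, huv, hc⟩ := h.se hG
  have iv : ∀ w : G, orderOf w = 2 → Iv w := fun w hw =>
    ⟨by rw [← sq, ← hw, pow_orderOf_eq_one], by rintro rfl; simp at hw⟩
  have S : SE G (G ⧸ M) := se_quot (fun w g hw => h1 w g hw.orderOf)
    (fun w hw => (h2 w hw.orderOf).imp' (·⁻¹) fun g hg => by rwa [inv_inv]) ⟨u, iv u ou⟩
  have : FaithfulSMul G (G ⧸ M) := by
    have hk : (MulAction.toPermHom G (G ⧸ M)).ker = ⊥ := by
      rw [← normalCore_eq_ker]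
      exact (inferInstance : M.normalCore.Normal).eq_bot_or_eq_top.resolve_right fun e =>
        hM (top_le_iff.1 (e ▸ normalCore_le M))
    exact ⟨fun {x y} e => (MonoidHom.ker_eq_bot_iff _).1 hk (Equiv.ext e)⟩
  obtain ⟨g, hg⟩ : ∃ g, g ∉ M := by
    by_contra hn
    push Not at hn
    exact hM ((eq_top_iff' M).2 hn)
  obtain ⟨N⟩ := general S ⟨u, v, iv u ou, iv v ov, huv, hc⟩
    ⟨(1 : G), g, fun e => hg (by simpa using QuotientGroup.eq.1 e)⟩
  rcases N.ident FT.oddOrder with ⟨K, _, _, n, -, hK, ⟨e⟩⟩ | ⟨k, -, hk⟩ | ⟨K, _, _, n, hn, hK, ⟨e⟩⟩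
  · have h3 := (CIT.card_psl2_even hK).2
    rw [← Nat.card_congr e.toEquiv, hG] at h3
    have h4 : n < 10 := by
      by_contra h4
      have := ((pow_dvd_pow 2 (not_lt.1 h4)).mul_right _).trans h3.symm.dvd
      norm_num at this
    interval_cases n <;> omega
  · have h3 := hk.card
    rw [hG] at h3
    have h4 : k < 2 := by
      by_contra h4
      have : 2 ^ 10 ∣ (2 ^ (2 * k + 1)) ^ 2 := by
        rw [← pow_mul]; exact pow_dvd_pow 2 (by omega)
      have := ((this.mul_right _).mul_right _).trans h3.symm.dvd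
      norm_num at this
    interval_cases k <;> omega
  · have h3 := card_psu3 hK
    rw [← Nat.card_congr e.toEquiv, hG] at h3
    have h4 : n < 4 := by
      by_contra h4
      have : 2 ^ 12 ∣ (2 ^ n) ^ 3 := by
        rw [← pow_mul]; exact pow_dvd_pow 2 (by omega)
      have := (((this.mul_right _).mul_right _).trans h3.symm.dvd).trans
        (Nat.mul_dvd_mul_right (Nat.gcd_dvd_left _ _) _)
      norm_num at this
    obtain rfl : n = 3 := by interval_cases n <;> simp_all
    obtain ⟨f⟩ := psu_congr (F := K) (F' := F) 3 8 (hK.trans hF.symm)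
    exact ⟨e.trans f⟩

end Cfsg.Agent.U45
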