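import Cfsg.Agent.U45.Num
import Cfsg.Agent.U45.UCa

/-!
# The groups `PSL₂(q)`, `q = 23, 47, 25, 81`
-/

set_option autoImplicit false

namespace Cfsg.Agent.U45

open Subgroup MulAction Cfsg.Agent.Char Cfsg.Agent.Zass Cfsg.Agent.M11 Cfsg.Agent.Small
  Cfsg.Agent.PSL2Rec

variable {G : Type*} [Group G] [Finite G]

theorem no_two_mul [IsSimpleGroup G] (hna : ¬ IsMulCommutative G) {Ω : Type*} [MulAction G Ω]
    {a b : Ω} {P : Subgroup G} {w : G} (hZ : PSL2Rec.ZData G a b P w) {l : ℕ} (hl : l.Prime)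
    (h2 : l ≠ 2) (hK : Nat.card ↥(stabilizer G a ⊓ stabilizer G b) = l)
    (hsq : ¬ l * l ∣ Nat.card G) (z : G) : orderOf z ≠ l * 2 := by
  intro hz
  have := Fact.mk hl
  have := Fintype.ofFinite G
  obtain ⟨⟨y, hy⟩, oy⟩ := exists_prime_orderOf_dvd_card' (G := ↥(stabilizer G a ⊓ stabilizer G b)) l
    (hK ▸ dvd_rfl)
  replace oy : orderOf y = l := (orderOf_coe _).trans oy
  have y1 : y ≠ 1 := fun e => hl.ne_one (by rw [← oy, e, orderOf_one])
  have hz2 : orderOf (z ^ 2) = l := by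
    rw [orderOf_pow' _ two_ne_zero, hz, Nat.gcd_mul_left_left, Nat.mul_div_cancel _ two_pos]
  have h3 : l * 2 ∣ cc y := by
    rw [← cc_eq_of_ord hl hsq oy hz2, ← hz]
    exact orderOf_dvd_cc (Commute.self_pow z 2)
  have hP : PP l y := ⟨h2, oy, hsq⟩
  have h4 : normalizer (zpowers y : Set G) ≤ pairStab G a b := by
    intro n hn
    have h5 : n⁻¹ * y * n ∈ stabilizer G a ⊓ stabilizer G b := by
      have := (mem_normalizer_iff.1 (inv_mem hn) y).1 (mem_zpowers y)
      rw [inv_inv] at this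
      exact (zpowers_le_of_mem hy) this
    have h6 : ∀ c, (n⁻¹ * y * n) • c = c → n • c = a ∨ n • c = b := by
      intro c hc
      by_contra h7
      rw [not_or] at h7
      refine y1 (hZ.three y _ h7.1 h7.2 hy.1 hy.2 ?_)
      rw [mul_smul, mul_smul, inv_smul_eq_iff] at hc
      exact hc
    have h8 : n • a ≠ n • b := fun e => hZ.ne (smul_left_cancel n e)
    rcases h6 a h5.1 with e | e <;> rcases h6 b h5.2 with e' | e'
    · exact absurd (e.trans e'.symm) h8
    · exact .inl ⟨e, e'⟩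
    · exact .inr ⟨e, e'⟩
    · exact absurd (e.trans e'.symm) h8
  have h5 := card_le_of_le h4
  rw [hZ.card_pairStab, hK, ← hP.card_norm] at h5
  have h6 := (hP.data hna).2.1
  have h7 := Finset.card_pos.2 ⟨_, hP.E1⟩
  have h8 := Nat.le_of_dvd (cc_pos y) h3
  have := hl.pos
  nlinarith [Nat.mul_le_mul h8 (show 2 ≤ (EE l y).card by omega)]

theorem rho_of_zdata {Ω : Type*} [MulAction G Ω] {a b : Ω} {P : Subgroup G} {w : G}
    (hZ : PSL2Rec.ZData G a b P w)
    (hinv : ∀ k ∈ stabilizer G a ⊓ stabilizer G b, w * k * w⁻¹ = k⁻¹) : Rho G (Nat.card P) := by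
  have := Fintype.ofFinite G
  have := Fintype.ofFinite (stabilizer G a)
  have h1 := hZ.inner_ind hinv (l := 1) (μ := 1) (fun _ _ => rfl) irr_one fun _ _ => rfl
  have h0 : cj (1 : stabilizer G a → ℂ) = 1 := by ext; simp
  have h2 : classInner (indFun (stabilizer G a) 1) (1 : G → ℂ) = 1 :=
    (inner_indFun_left _ _ classFun_one).trans inner_one_one
  have h3 : classInner (1 : G → ℂ) (indFun (stabilizer G a) 1) = 1 := by
    rw [← Char.inner_conj_symm, h2, map_one]
  have h4 : (indFun (stabilizer G a) 1 - 1 : G → ℂ) 1 = Nat.card P := by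
    simp [indFun_one, hZ.index_stab]
  refine ⟨_, irr_of_gen_norm_one (gen_sub (gen_of_char (char_indFun _ char_one'))
    (gen_of_char char_one')) ?_ (by rw [h4]; simp), by rw [deg_of_eq h4]⟩
  simp only [Char.inner_sub_left, Char.inner_sub_right, h1, h0, h2, h3, inner_one_one]
  norm_num

theorem l2_prime [IsSimpleGroup G] (hna : ¬ IsMulCommutative G) {p : ℕ}
    (hq : (p = 23 ∧ Nat.card G = 6072) ∨ (p = 47 ∧ Nat.card G = 51888)) (h : NP G p ((p - 1) / 2))
    {F : Type*} [Field F] [Fintype F] (hF : Fintype.card F = p) :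
    Nonempty (G ≃* Matrix.ProjectiveSpecialLinearGroup (Fin 2) F) ∧ Rho G p := by
  obtain ⟨l, hp, hl, l2, e1, e2, e3, e4, e5⟩ : ∃ l : ℕ, p.Prime ∧ l.Prime ∧ l ≠ 2 ∧ p - 1 = 2 * l ∧
      Nat.card G = p ^ 1 * l * (p ^ 1 + 1) ∧ ¬ l * l ∣ Nat.card G ∧ Odd l ∧ 3 < p := by
    rcases hq with ⟨rfl, e⟩ | ⟨rfl, e⟩
    · exact ⟨11, by rw [e]; norm_num [Nat.odd_iff]⟩
    · exact ⟨23, by rw [e]; norm_num [Nat.odd_iff]⟩
  have := Fact.mk hp
  have : CharP F p := charP_of_card_eq_prime hF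
  have hN : NoMul p G := fun r hr x hx => by
    have h1 := ord_eq (fun x hx => (h x hx).1) (hx ▸ dvd_mul_right p r)
    rw [hx] at h1
    exact hr.ne_one ((Nat.mul_eq_left hp.ne_zero).1 h1)
  obtain ⟨P, Q, w, hZ, hP, hK, -⟩ := hN.sylowTI.exists_zdata_of_card (fun r hr _ => hN r hr)
    one_ne_zero (by rw [pow_one, e1]; exact dvd_mul_left _ _) e2
  have h2 := no_two_mul hna hZ hl l2 hK e3
  refine ⟨recog_psl2 (hF ▸ e5) p ?_ hN.sylowTI (fun r hr _ => hN r hr) fun _ r hr h1 r2 => ?_, ?_⟩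
  · have := card_psl2 (F := F)
    rw [hF, e1, Nat.gcd_mul_right_right, ← mul_assoc, mul_comm p, mul_assoc, mul_assoc] at this
    rw [e2, pow_one, mul_assoc, Nat.eq_of_mul_eq_mul_left two_pos this]
  · rw [hF, e1, Nat.Prime.dvd_mul hr, Nat.prime_dvd_prime_iff_eq hr Nat.prime_two,
      Nat.prime_dvd_prime_iff_eq hr hl] at h1
    exact h1.resolve_left r2 ▸ h2
  · obtain ⟨v, -, hva, hvb, hv⟩ := hZ.exists_swap_of_odd (hK ▸ e4) fun r hr h1 => by
      rw [hK, Nat.prime_dvd_prime_iff_eq hr hl] at h1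
      exact h1 ▸ h2
    have := rho_of_zdata (hZ.of_swap hva hvb) hv
    rwa [show Nat.card (P : Subgroup G) = p ^ 1 from hP, pow_one] at this

namespace UD

variable {p r q : ℕ} {St : G → ℤ} (h : UD G r q St) (s : Sh G p r q (q - 1)) {u : G}
include h s

theorem st_zero (hu : p ∣ orderOf u) : St u = 0 := by
  have := irr_eq_zero_of_dvd h.irr s.pp s.card
    (by rw [deg_of_eq (d := q) (by rw [h.deg1]; simp)]) s.nd hu
  exact_mod_cast this

theorem st_one {l : ℕ} (hl : l.Prime) (h1 : l ≠ p) (h2 : ¬ r ∣ orderOf u) (hu : l ∣ orderOf u) :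
    St u = 1 := by
  obtain ⟨ψ, hψ, hd, hv⟩ := h.exc
  obtain ⟨j, e⟩ := s.pw
  have := irr_eq_zero_of_dvd hψ hl (A := q - 1) (B := r * q) (by rw [s.card]; ring) (hd ▸ dvd_rfl)
    (fun e' => ?_) hu
  · rw [hv u h2] at this
    have h3 : St u - 1 = 0 := by exact_mod_cast this
    omega
  rcases (Nat.Prime.dvd_mul hl).1 e' with e' | e'
  · exact h2 ((Nat.prime_dvd_prime_iff_eq hl h.prime).1 e' ▸ hu)
  · exact h1 ((Nat.prime_dvd_prime_iff_eq hl s.pp).1 (hl.dvd_of_dvd_pow (e ▸ e')))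

theorem only {l : ℕ} (hl : l.Prime) (h1 : p ∣ orderOf u) (hu : l ∣ orderOf u) : l = p := by
  by_contra e
  have h2 := h.st_zero s h1
  by_cases h3 : r ∣ orderOf u
  · rw [h.sing u h3] at h2; omega
  · rw [h.st_one s hl e h3 hu] at h2; omega

theorem pe (h1 : p ∣ orderOf u) : PE p u :=
  ⟨_, by rw [← Nat.eq_prime_pow_of_unique_prime_dvd (orderOf_pos u).ne' fun hd hd' =>
    h.only s hd h1 hd', pow_orderOf_eq_one]⟩

theorem cc_dvd' (h1 : p ∣ orderOf u) : cc u ∣ q := by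
  have h2 : ∀ {l : ℕ}, l.Prime → l ∣ cc u → l = p := fun {l} hl hd => by
    by_contra e
    obtain ⟨x, hx, hc⟩ := exists_of_prime_dvd_cc hl hd
    obtain ⟨j, hj⟩ := h.pe s h1
    obtain ⟨j', -, hj'⟩ := (Nat.dvd_prime_pow s.pp).1 (orderOf_dvd_of_pow_eq_one hj)
    have h3 := hc.orderOf_mul_eq_mul_orderOf_of_coprime
      (by rw [hx, hj']; exact ((Nat.coprime_primes hl s.pp).2 e).pow_right _)
    exact e (h.only s hl (h3 ▸ h1.mul_left _) (h3 ▸ hx ▸ dvd_mul_right _ _))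
  refine Nat.Coprime.dvd_of_dvd_mul_right (n := r * (q - 1)) ?_ (s.card ▸ cc_dvd u)
  rw [Nat.eq_prime_pow_of_unique_prime_dvd (cc_pos u).ne' h2]
  exact ((Nat.Prime.coprime_iff_not_dvd s.pp).2 s.nd).pow_left _

theorem cnt (q1 : q ≠ 1) : ({g : G | p ∣ orderOf g}.ncard : ℤ) = q ^ 2 - 1 := by
  classical
  have := Fintype.ofFinite G
  have e : ∀ (f : G → ℤ) (c d : ℤ), (∀ g, r ∣ orderOf g → f g = c) → (∀ g, p ∣ orderOf g → f g = d) →
      ∑ g, (St g - 1) * f g = (q - 1) * f 1 -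
      d * (Finset.univ.filter fun g : G => p ∣ orderOf g).card -
      2 * c * (Finset.univ.filter fun g : G => r ∣ orderOf g).card := by
    intro f c d hc hd
    have e : ∀ g, (St g - 1) * f g = (if g = 1 then (q - 1) * f 1 else 0) -
        (if p ∣ orderOf g then d else 0) - if r ∣ orderOf g then 2 * c else 0 := by
      intro g
      by_cases g1 : g = 1
      · subst g1
        simp [h.deg1, h.prime.ne_one, s.pp.ne_one]
      by_cases g2 : p ∣ orderOf g
      · have g3 : ¬ r ∣ orderOf g := fun e => s.nd (h.only s h.prime g2 e ▸ dvd_mul_right _ _)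
        simp [g1, g2, g3, h.st_zero s g2, hd g g2]
      by_cases g3 : r ∣ orderOf g
      · simp only [g1, g2, g3, h.sing g g3, hc g g3, if_true, if_false]
        ring
      · obtain ⟨l, hl, h4⟩ := Nat.exists_prime_and_dvd (mt orderOf_eq_one_iff.1 g1)
        simp [g1, g2, g3, h.st_one s hl (fun e => g2 (e ▸ h4)) g3 h4]
    simp only [e, Finset.sum_sub_distrib, Finset.sum_ite_eq', Finset.mem_univ, if_true,
      ← Finset.sum_filter, Finset.sum_const, nsmul_eq_mul]
    ring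
  have i1 : IsIrrCharacter G fun g => (((fun _ => 1 : G → ℤ) g : ℤ) : ℂ) := by
    simp only [Int.cast_one]
    exact irr_one
  have a2 := (sum_int h.irr i1).1 (by rw [h.deg1]; exact_mod_cast q1)
  have a5 := (sum_int h.irr h.irr).2 rfl
  have a6 := (sum_int i1 i1).2 rfl
  have b1 := e (fun _ => 1) 1 1 (fun _ _ => rfl) fun _ _ => rfl
  have b2 := e St (-1) 0 h.sing fun g hg => h.st_zero s hg
  rw [Set.ncard_eq_toFinset_card', Set.toFinset_ofPred]
  simp only [sub_mul, Finset.sum_sub_distrib, mul_one, one_mul, h.deg1] at *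
  linarith

theorem noMul (e : q + 1 = 2 * r) (q1 : 1 < q) : NoMul p G := by
  intro l hl y hy
  have hp := s.pp
  have := Fact.mk hp
  obtain rfl := h.only s hl (hy ▸ dvd_mul_right _ _) (hy ▸ dvd_mul_left _ _)
  have hc : {g : G | l ∣ orderOf g}.ncard = 2 * (r * (q - 1)) := by
    have h1 := h.cnt s q1.ne'
    obtain ⟨t, rfl⟩ := Nat.exists_eq_add_of_lt q1
    have e' : ((1 + t + 1 + 1 : ℕ) : ℤ) = (2 * r : ℕ) := by rw [e]
    rw [Nat.add_sub_cancel]
    push_cast at h1 e'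
    generalize {g : G | l ∣ orderOf g}.ncard = n at h1
    zify
    rw [h1]
    linear_combination (1 + t : ℤ) * e'
  have cl : ∀ u : G, l ∣ orderOf u → {w | IsConj u w} ⊆ {g : G | l ∣ orderOf g} ∧
      r * (q - 1) ≤ {w | IsConj u w}.ncard ∧ (r * (q - 1) = {w | IsConj u w}.ncard → cc u = q) := by
    intro u hu
    have h1 := cc_mul u
    rw [s.card] at h1
    refine ⟨fun w hw => ?_, ?_, fun e => ?_⟩
    · obtain ⟨c, rfl⟩ := isConj_iff.1 hw
      exact hu.trans ((MulAut.conj c).orderOf_eq u).symm.dvd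
    · exact Nat.le_of_mul_le_mul_left (h1 ▸ Nat.mul_le_mul_right _
        (Nat.le_of_dvd (by omega) (h.cc_dvd' s hu))) (show 0 < q by omega)
    · rw [← e] at h1
      exact Nat.eq_of_mul_eq_mul_right (Nat.mul_pos h.prime.pos (by omega)) h1
  have o1 : orderOf (y ^ l) = l := by
    rw [orderOf_pow' _ hp.ne_zero, hy, Nat.gcd_mul_left_left, Nat.mul_div_cancel _ hp.pos]
  have nc : ∀ u w : G, orderOf u = l * l → IsConj u w → ¬ IsConj (y ^ l) w := fun u w hu c c' => by
    obtain ⟨c, e⟩ := isConj_iff.1 (c.trans c'.symm)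
    have := (MulAut.conj c).orderOf_eq u
    rw [MulAut.conj_apply, e, o1, hu] at this
    exact hp.ne_one ((Nat.mul_eq_left hp.ne_zero).1 this.symm)
  obtain ⟨a1, a2, a3⟩ := cl y (hy ▸ dvd_mul_right _ _)
  obtain ⟨b1, b2, -⟩ := cl (y ^ l) o1.symm.dvd
  have d1 : Disjoint {w | IsConj y w} {w | IsConj (y ^ l) w} :=
    Set.disjoint_left.2 fun w c c' => nc y w hy c c'
  have d2 := Set.ncard_union_eq d1
  have d3 := Set.ncard_le_ncard (Set.union_subset a1 b1)
  have d4 := Set.eq_of_subset_of_ncard_le (Set.union_subset a1 b1) (by omega)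
  have ccy : cc y = q := a3 (by omega)
  have o2 : orderOf (y ^ (1 + l)) = l * l := by
    rw [← hy]
    refine Nat.Coprime.orderOf_pow ?_
    rw [hy]
    exact Nat.Coprime.mul_left (by simp) (by simp)
  have d5 : y ^ (1 + l) ∈ {w | IsConj y w} ∪ {w | IsConj (y ^ l) w} := by
    rw [d4]
    exact (dvd_mul_right l l).trans o2.symm.dvd
  obtain ⟨g, hg⟩ := isConj_iff.1 (d5.resolve_right (nc _ _ o2 (IsConj.refl _)))
  have hk : ∀ k : ℕ, g ^ k * y * (g ^ k)⁻¹ = y ^ (1 + k * l) := by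
    intro k
    induction k with
    | zero => simp
    | succ k ih =>
      rw [pow_succ', mul_inv_rev, mul_assoc g, mul_assoc g, ← mul_assoc _ _ g⁻¹, ih, ← mul_assoc,
        ← conj_pow, hg, ← pow_mul, show (1 + l) * (1 + k * l) = 1 + (k + 1) * l + l * l * k by ring,
        pow_add, pow_mul, ← hy, pow_orderOf_eq_one, one_pow, mul_one]
  have pg : l ∣ orderOf g := by
    have h1 := hk (orderOf g)
    rw [pow_orderOf_eq_one, one_mul, inv_one, mul_one, pow_add, pow_one, left_eq_mul,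
      ← orderOf_dvd_iff_pow_eq_one, hy] at h1
    exact Nat.dvd_of_mul_dvd_mul_right hp.pos h1
  obtain ⟨j, hj⟩ := s.pw
  obtain ⟨i, hi⟩ := h.pe s pg
  have p1 : IsPGroup l (centralizer ({y} : Set G)) := IsPGroup.of_card (ccy.trans hj)
  have p2 : IsPGroup l (zpowers g⁻¹) := by
    obtain ⟨k, -, hk⟩ := (Nat.dvd_prime_pow hp).1 (orderOf_dvd_of_pow_eq_one hi)
    exact IsPGroup.of_card (by rw [Nat.card_zpowers, orderOf_inv, hk])
  have p3 := p1.to_sup_of_normal_left' p2 (zpowers_le.2 (mem_normalizer_fintype fun c hc => by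
    have hc' : Commute c (g * y * g⁻¹) :=
      hg ▸ (show Commute c y from mem_centralizer_singleton_iff.1 hc).pow_right _
    refine mem_centralizer_singleton_iff.2 ?_
    have := congrArg (fun t => g⁻¹ * t * g) hc'.eq
    simpa [mul_assoc] using this))
  obtain ⟨m, hm⟩ := p3.exists_card_eq
  have p4 : Nat.card ↥(centralizer ({y} : Set G) ⊔ zpowers g⁻¹) ∣ q :=
    Nat.Coprime.dvd_of_dvd_mul_right (n := r * (q - 1))
      (hm ▸ ((Nat.Prime.coprime_iff_not_dvd hp).2 s.nd).pow_left _) (s.card ▸ card_subgroup_dvd_card _)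
  have p5 := eq_of_le_of_card_ge (le_sup_left (b := zpowers g⁻¹))
    ((Nat.le_of_dvd (by omega) p4).trans ccy.ge)
  have p6 : g ∈ centralizer ({y} : Set G) := by
    rw [← inv_mem_iff, p5]
    exact mem_sup_right (mem_zpowers _)
  rw [mem_centralizer_singleton_iff.1 p6, mul_inv_cancel_right, pow_add, pow_one, left_eq_mul,
    ← orderOf_eq_one_iff, o1] at hg
  exact hp.ne_one hg

end UD

theorem UD.l2 {q r : ℕ} {St : G → ℤ}
    (hq : (q = 25 ∧ r = 13 ∧ Nat.card G = 7800) ∨ (q = 81 ∧ r = 41 ∧ Nat.card G = 265680))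
    (h : UD G r q St) {F : Type*} [Field F] [Fintype F] (hF : Fintype.card F = q) :
    Nonempty (G ≃* Matrix.ProjectiveSpecialLinearGroup (Fin 2) F) := by
  obtain ⟨p, s⟩ : ∃ p, Sh G p r q (q - 1) := by
    rcases hq with ⟨rfl, rfl, e⟩ | ⟨rfl, rfl, e⟩
    exacts [⟨5, by norm_num, ⟨2, rfl⟩, e, by decide⟩, ⟨3, by norm_num, ⟨4, rfl⟩, e, by decide⟩]
  have := Fact.mk s.pp
  obtain ⟨j, hj⟩ := s.pw
  have : CharP F p := charP_of_card_eq_prime_pow (hF.trans hj)
  have hN := h.noMul s (by omega) (by omega)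
  have hc := card_psl2 (F := F)
  rw [hF] at hc
  refine recog_psl2 (by omega) p ?_ hN.sylowTI (fun r hr _ => hN r hr) fun ho => ?_
  · rcases hq with ⟨rfl, -, e⟩ | ⟨rfl, -, e⟩ <;> norm_num at hc <;> omega
  · rw [hF] at ho
    rcases hq with ⟨rfl, -⟩ | ⟨rfl, -⟩ <;> exact absurd ho (by decide)

end Cfsg.Agent.U45
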