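import Cfsg.Agent.U45.LocN
import Cfsg.Agent.Mat.Gen4
import Cfsg.Agent.Fix4.Basic
import Cfsg.Agent.Block.ZStar
import Cfsg.Agent.LinP.NormalRank

/-!
# A strongly embedded subgroup for the order of `PSU₃(8)`
-/

set_option autoImplicit false

namespace Cfsg.Agent.U45

open Subgroup Cfsg.Agent.M11 Cfsg.Agent.Local
open scoped Pointwise

section Abs

variable {H : Type*} [Group H] [Finite H]

theorem card_dvd_cent_mul (R : Subgroup H) {S : Set H} (hS : ∀ r ∈ R, ∀ u ∈ S, r * u * r⁻¹ ∈ S)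
    (h7 : S.ncard ≤ 7) : Nat.card R ∣ Nat.card ↥(R ⊓ centralizer S) * 5040 := by
  let _ : MulAction H H := MulAction.compHom H (MulAut.conj (G := H))
  obtain ⟨e, φ, he, hr, hφ⟩ := Fix4.exists_permHom R (Γ := S) rfl hS
  have hk : φ.ker = (centralizer S).subgroupOf R := by
    ext x
    rw [MonoidHom.mem_ker, mem_subgroupOf, mem_centralizer_iff]
    refine ⟨fun h u hu => ?_, fun h => Equiv.ext fun i => he ?_⟩
    · obtain ⟨i, rfl⟩ := hr.ge hu
      have := hφ x i
      rw [h] at this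
      exact (mul_inv_eq_iff_eq_mul.1 this).symm
    · rw [← hφ]
      exact mul_inv_eq_iff_eq_mul.2 (h _ (hr.le ⟨i, rfl⟩)).symm
  rw [← φ.ker.card_mul_index, index_ker, hk, ← inf_subgroupOf_left,
    Pres.card_subgroupOf_of_le inf_le_left]
  refine Nat.mul_dvd_mul_left _ ((card_subgroup_dvd_card _).trans ?_)
  rw [Nat.card_perm, Nat.card_eq_fintype_card, Fintype.card_fin]
  exact Nat.factorial_dvd_factorial h7

theorem pe_of_pgroup {p : ℕ} {R : Subgroup H} (h : IsPGroup p R) {u : H} (hu : u ∈ R) : PE p u :=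
  (h ⟨u, hu⟩).imp fun _ e => congrArg Subtype.val e

theorem pe_of_ord {u : H} (hu : orderOf u = 2) : PE 2 u := ⟨1, by rw [pow_one, ← hu, pow_orderOf_eq_one]⟩

theorem inv_mem_core (hc : Nat.card H = 1536 ∨ Nat.card H = 2304 ∨ Nat.card H = 4608) {X : Set H}
    (hX : ∀ g, ∀ u ∈ X, g * u * g⁻¹ ∈ X) (h1 : 1 ∉ X) (h2 : ∀ u, orderOf u = 2 → u ∈ X)
    (h7 : ∀ R : Subgroup H, IsPGroup 2 R → (X ∩ R).ncard ≤ 7)
    (h3 : ∀ u s : H, PE 2 u → u ≠ 1 → s ^ 9 = 1 → s ≠ 1 → Commute s u → u ∈ X) {t : H}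
    (ht : orderOf t = 2) : t ∈ pCore 2 H := by
  have := Fact.mk Nat.prime_two
  have := Fact.mk Nat.prime_three
  set O := pCore 2 H with hO
  have hOp : IsPGroup 2 O := isPGroup_pCore 2
  have hcs : ∀ (R : Subgroup H) (s : H), IsPGroup 2 R → s ^ 9 = 1 → s ≠ 1 →
      Nat.card ↥(R ⊓ centralizer {s}) ≤ (X ∩ R).ncard + 1 := fun R s hR s9 s1 => by
    rw [← Set.ncard_insert_of_notMem (fun e : 1 ∈ X ∩ R => h1 e.1)]
    refine Set.ncard_le_ncard (s := ((R ⊓ centralizer {s} : Subgroup H) : Set H)) fun u hu => ?_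
    by_cases u1 : u = 1
    · exact Or.inl u1
    · exact Or.inr ⟨h3 u s (pe_of_pgroup hR hu.1) u1 s9 s1
        (mem_centralizer_singleton_iff.1 hu.2).symm, hu.1⟩
  by_contra htO
  obtain ⟨a, b, ha, hb, hab⟩ : ∃ a b, IsConj t a ∧ IsConj t b ∧
      ¬ IsPGroup 2 ↥(zpowers a ⊔ zpowers b) := by
    by_contra hn
    push Not at hn
    obtain ⟨N, k1, k2, k3⟩ := Mat.baer_suzuki hn
    exact htO (le_pCore k1 k2 k3)
  have haO : a ∉ O := fun e => by
    obtain ⟨c, rfl⟩ := isConj_iff.1 ha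
    exact htO (by simpa [mul_assoc] using (inferInstance : O.Normal).conj_mem _ e c⁻¹)
  have oa := (orderOf_eq_of_isConj ha).symm.trans ht
  have ob := (orderOf_eq_of_isConj hb).symm.trans ht
  have aa : a * a = 1 := by rw [← sq, ← oa, pow_orderOf_eq_one]
  have bb : b * b = 1 := by rw [← sq, ← ob, pow_orderOf_eq_one]
  have hinv : a * (a * b) * a⁻¹ = (a * b)⁻¹ := by
    rw [← mul_assoc, aa, one_mul, _root_.mul_inv_rev, inv_eq_of_mul_eq_one_right bb]
  have d3 : 3 ∣ orderOf (a * b) := by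
    by_contra hn
    have : orderOf (a * b) ∣ 2 ^ 9 := ((Nat.Coprime.pow_right 2
      ((Nat.prime_three.coprime_iff_not_dvd.2 hn).symm)).dvd_of_dvd_mul_right
        ((_root_.orderOf_dvd_natCard _).trans (by rcases hc with e | e | e <;> rw [e] <;> norm_num)))
    refine hab (((PE.pgroup ⟨9, orderOf_dvd_iff_pow_eq_one.1 this⟩).to_sup_of_normal_left'
      (pe_of_ord oa).pgroup (zpowers_le.2 (mem_normalizer_of_conj_mem fun n hn => ?_))).to_le
      (sup_le le_sup_right (zpowers_le.2 ?_)))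
    · obtain ⟨n, rfl⟩ := mem_zpowers_iff.1 hn
      rw [← conj_zpow, hinv]
      exact zpow_mem (inv_mem (mem_zpowers _)) n
    · have := mul_mem (mem_sup_right (mem_zpowers a) : a ∈ zpowers (a * b) ⊔ zpowers a)
        (mem_sup_left (mem_zpowers (a * b)))
      rwa [← mul_assoc, aa, one_mul] at this
  obtain ⟨s, hs, has⟩ : ∃ s : H, orderOf s = 3 ∧ a * s * a⁻¹ = s⁻¹ :=
    ⟨_, orderOf_pow_orderOf_div (orderOf_pos _).ne' d3, by rw [← conj_pow, hinv, inv_pow]⟩
  have s3 : s ^ 3 = 1 := by rw [← hs, pow_orderOf_eq_one]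
  have key : ∀ a : H, orderOf a = 2 → a ∉ O →
      (centralizer {a}).relIndex O + (X ∩ O).ncard ≤ 7 := fun a oa haO => by
    have e1 := card_inf_centralizer_mul O a
    rw [← card_inf_mul_relIndex (centralizer {a}) O, inf_comm] at e1
    rw [← Nat.eq_of_mul_eq_mul_left Nat.card_pos e1, ← Set.ncard_union_eq]
    · refine (Set.ncard_le_ncard ?_).trans (h7 _ (hOp.to_sup_of_normal_left (pe_of_ord oa).pgroup))
      rintro u (⟨r, hr, rfl⟩ | hu)
      · exact ⟨hX _ _ (h2 a oa), mul_mem (mul_mem (mem_sup_left hr) (mem_sup_right (mem_zpowers a)))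
          (mem_sup_left (inv_mem hr))⟩
      · exact ⟨hu.1, mem_sup_left hu.2⟩
    · rw [Set.disjoint_left]
      rintro _ ⟨r, hr, rfl⟩ hu
      exact haO (by simpa [mul_assoc] using mul_mem (mul_mem (inv_mem hr) hu.2) hr)
  have k1 := key a oa haO
  have k2 := key (s * a * s⁻¹) ((M11.orderOf_conj' s a).trans oa) fun e => haO (by
    simpa [mul_assoc] using (inferInstance : O.Normal).conj_mem _ e s⁻¹)
  have k3 := hcs O s hOp (by rw [show 9 = 3 * 3 from rfl, pow_mul, s3, one_pow]) (by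
    rintro rfl; simp at hs)
  have k4 : Nat.card O ≤ Nat.card ↥(O ⊓ centralizer {s}) * ((centralizer {a}).relIndex O *
      (centralizer {s * a * s⁻¹}).relIndex O) := by
    rw [← card_inf_mul_relIndex (centralizer {a} ⊓ centralizer {s * a * s⁻¹}) O]
    refine Nat.mul_le_mul (card_le_of_le fun u hu => ⟨hu.2, ?_⟩) relIndex_inf_le
    have : a * (s * a * s⁻¹) = s := by
      calc _ = (a * s * a⁻¹) * (a * a) * s⁻¹ * s ^ 3 := by rw [s3]; group
        _ = s := by rw [has, aa]; group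
    exact mem_centralizer_singleton_iff.2 (this ▸ (Commute.mul_right
      (mem_centralizer_singleton_iff.1 hu.1.1) (mem_centralizer_singleton_iff.1 hu.1.2)).eq)
  obtain ⟨n, hn⟩ := hOp.exists_card_eq
  have pw : ∀ m, m ∣ Nat.card O → m ≤ 8 → m = 1 ∨ m = 2 ∨ m = 4 ∨ m = 8 := fun m h1 h2 => by
    obtain ⟨i, -, rfl⟩ := (Nat.dvd_prime_pow Nat.prime_two).1 (hn ▸ h1)
    have : i < 4 := (Nat.pow_lt_pow_iff_right one_lt_two).1 (by omega)
    interval_cases i <;> simp
  have p1 := pw _ (relIndex_dvd_card (centralizer {a}) O) (by omega)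
  have p2 := pw _ (relIndex_dvd_card (centralizer {s * a * s⁻¹}) O) (by omega)
  have p3 := pw _ (card_dvd_of_le (inf_le_left : O ⊓ centralizer {s} ≤ O)) (by omega)
  generalize (centralizer {a}).relIndex O = a1 at k1 k4 p1
  generalize (centralizer {s * a * s⁻¹}).relIndex O = a2 at k2 k4 p2
  generalize Nat.card ↥(O ⊓ centralizer {s}) = c at k3 k4 p3
  have o64 : Nat.card O ≤ 64 := by
    rcases p1 with rfl | rfl | rfl | rfl <;> rcases p2 with rfl | rfl | rfl | rfl <;> omega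
  obtain ⟨R⟩ : Nonempty (Sylow 2 H) := inferInstance
  have cR : 256 ≤ Nat.card R := by
    rcases hc with e | e | e
    · rw [card_sylow_eq R 9 3 e (by norm_num)]; norm_num
    · rw [card_sylow_eq R 8 9 e (by norm_num)]; norm_num
    · rw [card_sylow_eq R 9 9 e (by norm_num)]; norm_num
  by_cases e : Nat.card H = 1536
  · have hi : (R : Subgroup H).index = 3 := by
      have := (R : Subgroup H).card_mul_index
      rw [card_sylow_eq R 9 3 e (by norm_num), e] at this
      omega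
    have i6 : (R : Subgroup H).normalCore.index ∣ 6 := by
      rw [normalCore_eq_ker, index_ker]
      have := card_subgroup_dvd_card (MulAction.toPermHom H (H ⧸ (R : Subgroup H))).range
      rwa [Nat.card_perm, ← index, hi] at this
    have i7 := Nat.le_of_dvd (by norm_num) i6
    have i8 := (R : Subgroup H).normalCore.card_mul_index
    have i9 := card_le_of_le (le_pCore inferInstance (R.isPGroup'.to_le (normalCore_le _)))
    have := Nat.mul_le_mul (i9.trans o64) i7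
    omega
  have c256 : 256 ∣ Nat.card H := by omega
  obtain ⟨S⟩ : Nonempty (Sylow 3 H) := inferInstance
  have cS : Nat.card S = 9 := by
    rcases hc.resolve_left e with e | e
    · exact card_sylow_eq S 2 256 e (by norm_num)
    · exact card_sylow_eq S 2 512 e (by norm_num)
  have d9 := Mat.card_dvd_of_free (R := S) (X := (O : Set H) \ insert 1 (X ∩ O))
    (fun r _ u hu => ⟨(inferInstance : O.Normal).conj_mem u hu.1 r, by
      rintro (e | e)
      · exact hu.2 (Or.inl (by simpa using e))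
      · exact hu.2 (Or.inr ⟨by simpa [mul_assoc] using hX r⁻¹ _ e.1, hu.1⟩)⟩) fun r hr u hu hc => by
    by_contra r1
    exact hu.2 (Or.inr ⟨h3 u r (pe_of_pgroup hOp hu.1) (fun e => hu.2 (Or.inl e))
      (orderOf_dvd_iff_pow_eq_one.1 (cS ▸ orderOf_dvd_card_of_mem hr)) r1 hc, hu.1⟩)
  rw [cS, Set.ncard_diff (by rintro u (rfl | hu); exacts [one_mem O, hu.2]),
    Set.ncard_insert_of_notMem (fun e : 1 ∈ X ∩ O => h1 e.1)] at d9
  change 9 ∣ Nat.card O - _ at d9
  have o8 : Nat.card O ≤ 8 := by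
    have : n < 7 := (Nat.pow_lt_pow_iff_right one_lt_two).1 (by omega)
    rw [hn] at k4 d9 ⊢
    rcases p1 with rfl | rfl | rfl | rfl <;> rcases p2 with rfl | rfl | rfl | rfl <;>
      interval_cases n <;> omega
  have hV : pPrimeCore 2 H = ⊥ := by
    by_contra hV
    obtain ⟨⟨v, hv⟩, v1⟩ := ne_bot_iff_exists_ne_one.1 hV
    have c9 : Nat.card (pPrimeCore 2 H) ∣ 9 :=
      ((coprime_card_pPrimeCore (G := H) 2).pow_right 9).dvd_of_dvd_mul_left
        ((card_subgroup_dvd_card _).trans (by rcases hc with e | e | e <;> rw [e] <;> norm_num))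
    have e1 := card_inf_centralizer_mul R v
    have e2 : {w | ∃ r ∈ (R : Subgroup H), r * v * r⁻¹ = w}.ncard ≤ 9 := by
      refine le_trans (b := (pPrimeCore 2 H : Set H).ncard) (Set.ncard_le_ncard ?_)
        (Nat.le_of_dvd (by norm_num) c9)
      rintro _ ⟨r, -, rfl⟩
      exact (inferInstance : (pPrimeCore 2 H).Normal).conj_mem v hv r
    have e3 := (hcs R v R.isPGroup' (orderOf_dvd_iff_pow_eq_one.1
      ((orderOf_dvd_card_of_mem hv).trans c9)) fun e => v1 (Subtype.ext e)).trans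
      (Nat.succ_le_succ (h7 R R.isPGroup'))
    have := Nat.mul_le_mul e3 e2
    omega
  have hC := centralizer_pCore_le (Char.burnside_two_primes Nat.prime_two Nat.prime_three
    fun r hr hd => by
      have : r ∣ 2 ^ 9 * 3 ^ 2 := hd.trans (by rcases hc with e | e | e <;> rw [e] <;> norm_num)
      exact (hr.dvd_mul.1 this).imp
        (fun e => (Nat.prime_dvd_prime_iff_eq hr Nat.prime_two).1 (hr.dvd_of_dvd_pow e))
        fun e => (Nat.prime_dvd_prime_iff_eq hr Nat.prime_three).1 (hr.dvd_of_dvd_pow e)) hV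
  have f1 := card_dvd_cent_mul ⊤ (S := (O : Set H) \ {1}) (fun r _ u hu =>
    ⟨(inferInstance : O.Normal).conj_mem u hu.1 r, by simpa using hu.2⟩) (by
      rw [Set.ncard_diff_singleton_of_mem (one_mem O)]
      change Nat.card O - 1 ≤ 7
      omega)
  have f2 : Nat.card ↥(⊤ ⊓ centralizer ((O : Set H) \ {1})) ∣ Nat.card O :=
    card_dvd_of_le fun u hu => hC fun v hv => by
      by_cases v1 : v = 1
      · simp [v1]
      · exact hu.2 v ⟨hv, v1⟩
  rw [card_top] at f1
  have := c256.trans f1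
  rcases pw _ f2 ((Nat.le_of_dvd Nat.card_pos f2).trans o8) with e | e | e | e <;>
    rw [e] at this <;> norm_num at this

theorem exists_eight (hp : IsPGroup 2 H) (h16 : 16 ∣ Nat.card H)
    (h : ∀ z c : H, orderOf z = 2 → c ^ 2 = 1 → c ∈ zpowers z) :
    ∃ y : H, orderOf y = 8 ∧ ∀ v : H, orderOf v = 8 → v ∈ zpowers y := by
  have := Fact.mk Nat.prime_two
  obtain ⟨g, g8, hg⟩ : ∃ g : H, 8 ∣ orderOf g ∧ ∀ v : H, orderOf v = 8 → v ∈ zpowers g := by
    rcases LinP.cyclic_or_quaternion hp h with hc | ⟨-, n, ⟨e⟩⟩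
    · obtain ⟨g, hg⟩ := hc.exists_generator
      exact ⟨g, by rw [orderOf_eq_card_of_forall_mem_zpowers hg]; omega, fun v _ => hg v⟩
    · refine ⟨e.symm (QuaternionGroup.a 1), ?_, fun v hv => ?_⟩
      · rw [Nat.card_congr e.toEquiv, Nat.card_eq_fintype_card, QuaternionGroup.card] at h16
        rw [e.symm.orderOf_eq, QuaternionGroup.orderOf_a_one]
        omega
      · rcases hg : e v with i | i
        · refine mem_powers_iff_mem_zpowers.1 ⟨i.val, ?_⟩
          simp only [← map_pow, QuaternionGroup.a_one_pow, ZMod.natCast_zmod_val, ← hg,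
            e.symm_apply_apply]
        · rw [← e.orderOf_eq, hg, QuaternionGroup.orderOf_xa] at hv
          omega
  refine ⟨_, orderOf_pow_orderOf_div (orderOf_pos _).ne' g8, fun v hv => ?_⟩
  obtain ⟨k, rfl⟩ := mem_powers_iff_mem_zpowers.2 (hg v hv)
  obtain ⟨m, hm⟩ := g8
  have : orderOf g ∣ k * 8 := by
    rw [orderOf_dvd_iff_pow_eq_one, pow_mul, ← hv]; exact pow_orderOf_eq_one _
  rw [hm, mul_comm, Nat.mul_dvd_mul_iff_right (by norm_num)] at this
  obtain ⟨j, rfl⟩ := this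
  rw [hm, Nat.mul_div_cancel_left _ (by norm_num)]
  exact mem_powers_iff_mem_zpowers.1 ⟨j, (pow_mul g m j).symm⟩

end Abs

variable {G : Type*} [Group G] [Finite G] {χ : G → ℤ} (hG : Nat.card G = 5515776) (h : XD G 2 8 χ)
include hG h

omit h in
theorem card_syl8 [Fact (Nat.Prime 2)] (Q : Sylow 2 G) : Nat.card Q = 8 ^ 3 :=
  card_sylow_eq Q 9 10773 hG (by norm_num)

theorem XD.exists_syl {w : G} (hw : orderOf w = 2) [Fact (Nat.Prime 2)] :
    ∃ Q : Sylow 2 G, ∀ t, orderOf t = 2 → Commute t w → t ∈ Q := by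
  set C := centralizer ({w} : Set G)
  obtain ⟨k1, k2⟩ := h.ccX w (pe_of_ord hw) (h.inv rfl w hw)
  have key := fun t => inv_mem_core (H := C) (X := {u | PE 2 (u : G) ∧ χ u = -(8 : ℕ)}) (t := t) (by
      obtain ⟨d, hd⟩ := k1
      change cc w = _ ∨ cc w = _ ∨ cc w = _
      have : d ≤ 3 := by
        by_contra hn
        have := Nat.mul_le_mul_left (cc w) (show 4 ≤ d by omega)
        omega
      interval_cases d <;> omega)
    (fun g u hu => ⟨hu.1.conj g, (h.conj _ _).trans hu.2⟩)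
    (fun e => by have := e.2; rw [OneMemClass.coe_one, h.one] at this; norm_num at this)
    (fun u hu => by
      rw [← Subgroup.orderOf_coe] at hu
      exact ⟨pe_of_ord hu, h.inv rfl _ hu⟩)
    (fun R hR => by
      obtain ⟨Q, hQ⟩ := (hR.map C.subtype).exists_le_sylow
      rw [← Set.ncard_image_of_injective _ Subtype.val_injective]
      refine le_of_le_of_eq (Set.ncard_le_ncard ?_) (h.syl Q (card_syl8 hG Q))
      rintro _ ⟨u, hu, rfl⟩
      exact ⟨hQ ⟨u, hu.2, rfl⟩, hu.1.2⟩)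
    fun u s hu u1 s9 s1 hc => by
      have hu' : PE 2 (u : G) := hu.imp fun _ e => congrArg Subtype.val e
      refine ⟨hu', (h.val u (fun e => u1 (Subtype.ext e)) hu').resolve_right fun e => s1 ?_⟩
      have := (orderOf_dvd_cc (congrArg Subtype.val hc.eq)).trans e.2
      rw [Subgroup.orderOf_coe] at this
      exact orderOf_eq_one_iff.1 (Nat.eq_one_of_dvd_coprimes (show Nat.Coprime 9 (8 ^ 2) by norm_num)
        (orderOf_dvd_of_pow_eq_one s9) this)
  obtain ⟨Q, hQ⟩ := ((isPGroup_pCore (G := C) 2).map C.subtype).exists_le_sylow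
  exact ⟨Q, fun t ht hc => hQ ⟨⟨t, mem_centralizer_singleton_iff.2 hc⟩,
    key _ (by rw [← Subgroup.orderOf_coe, ht]), rfl⟩⟩

theorem XD.comm8 [Fact (Nat.Prime 2)] (Q : Sylow 2 G) {a b : G} (ha : a ∈ Q) (hb : b ∈ Q)
    (oa : orderOf a = 2) (ob : orderOf b = 2) : Commute a b := by
  by_contra hab
  have cQ := card_syl8 hG Q
  set J : Set G := {u | u ∈ Q ∧ orderOf u = 2} with hJ
  have hJc : ∀ r ∈ (Q : Subgroup G), ∀ u ∈ J, r * u * r⁻¹ ∈ J := fun r hr u hu =>
    ⟨mul_mem (mul_mem hr hu.1) (inv_mem hr), (M11.orderOf_conj' r u).trans hu.2⟩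
  have J7 : J.ncard ≤ 7 := by
    refine le_of_le_of_eq (Set.ncard_le_ncard ?_) (h.syl Q cQ)
    exact fun u hu => ⟨hu.1, h.inv rfl u hu.2⟩
  set C := (Q : Subgroup G) ⊓ centralizer J with hC
  have c32 : 16 ∣ Nat.card C := by
    have := card_dvd_cent_mul Q hJc J7
    rw [cQ, ← hC] at this
    omega
  obtain ⟨y, hy, hy8⟩ := exists_eight (H := C) (Q.isPGroup'.to_le inf_le_left) c32 fun z c hz hc => by
    by_contra hn
    let V : Subgroup G :=
      { carrier := {v | v ∈ C ∧ v * v = 1}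
        one_mem' := ⟨one_mem _, one_mul 1⟩
        inv_mem' := fun {v} hv => ⟨inv_mem hv.1, by rw [← _root_.mul_inv_rev, hv.2, inv_one]⟩
        mul_mem' := fun {v v'} hv hv' => ⟨mul_mem hv.1 hv'.1, by
          by_cases v1 : v = 1
          · rw [v1, one_mul, hv'.2]
          · have := hv'.1.2 v ⟨hv.1.1, orderOf_eq_prime (by rw [sq, hv.2]) v1⟩
            calc _ = v * (v' * v) * v' := by group
              _ = 1 := by rw [← this, ← mul_assoc, hv.2, one_mul, hv'.2]⟩ }
    have oz : orderOf (z : G) = 2 := (Subgroup.orderOf_coe z).trans hz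
    have oc : orderOf (c : G) = 2 := (Subgroup.orderOf_coe c).trans
      (orderOf_eq_prime hc fun e => hn (e ▸ one_mem _))
    have c4 : 4 ≤ Nat.card V := Nat.le_of_dvd Nat.card_pos (four_dvd_card (s := z) (t := c)
      ⟨z.2, by rw [← sq, ← oz, pow_orderOf_eq_one]⟩ ⟨c.2, by rw [← sq, ← oc, pow_orderOf_eq_one]⟩
      oz oc (c.2.2 z ⟨z.2.1, oz⟩) fun e => hn (Subtype.ext e ▸ mem_zpowers z))
    have sub : ∀ a b : G, a ∈ J → b ∈ J → ¬ Commute a b → (a * ·) '' (V : Set G) ⊆ J := by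
      rintro a b ha hb hab _ ⟨v, hv, rfl⟩
      refine ⟨mul_mem ha.1 hv.1.1, orderOf_eq_prime ?_ fun e => hab ?_⟩
      · rw [(show Commute a v from hv.1.2 a ha).mul_pow, sq v, hv.2, ← ha.2, pow_orderOf_eq_one,
          one_mul]
      · rw [eq_inv_of_mul_eq_one_left e]
        exact Commute.inv_left (hv.1.2 b hb).symm
    have := Set.ncard_le_ncard (Set.union_subset (sub a b ⟨ha, oa⟩ ⟨hb, ob⟩ hab)
      (sub b a ⟨hb, ob⟩ ⟨ha, oa⟩ fun e => hab e.symm))
    rw [Set.ncard_union_eq, Set.ncard_image_of_injective _ (mul_right_injective a),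
      Set.ncard_image_of_injective _ (mul_right_injective b)] at this
    · change Nat.card V + Nat.card V ≤ _ at this
      omega
    · rw [Set.disjoint_left]
      rintro _ ⟨v, hv, rfl⟩ ⟨v', hv', e⟩
      refine hab ?_
      rw [eq_mul_inv_of_mul_eq e]
      exact ((Commute.refl a).mul_right (hv.1.2 a ⟨ha, oa⟩)).mul_right
        (Commute.inv_right (hv'.1.2 a ⟨ha, oa⟩))
  have oy : orderOf (y : G) = 8 := (Subgroup.orderOf_coe y).trans hy
  have c7 : ((zpowers (y : G) : Set G) \ {1}).ncard = 7 := by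
    rw [Set.ncard_diff_singleton_of_mem (one_mem _)]
    change Nat.card (zpowers (y : G)) - 1 = 7
    rw [Nat.card_zpowers, oy]
  have e1 := card_inf_centralizer_mul (Q : Subgroup G) (y : G)
  have e2 : {w | ∃ r ∈ (Q : Subgroup G), r * y * r⁻¹ = w}.ncard ≤ 7 := by
    refine le_of_le_of_eq (Set.ncard_le_ncard ?_) c7
    rintro _ ⟨r, hr, rfl⟩
    have o := (M11.orderOf_conj' r y).trans oy
    obtain ⟨n, hn⟩ := mem_zpowers_iff.1 (hy8 ⟨r * y * r⁻¹, (Q : Subgroup G).mul_mem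
      ((Q : Subgroup G).mul_mem hr y.2.1) (inv_mem hr),
      fun u hu => by
        have := y.2.2 _ (hJc _ (inv_mem hr) u hu)
        calc _ = r * (r⁻¹ * u * r⁻¹⁻¹ * y) * r⁻¹ := by group
          _ = _ := by rw [this]; group⟩ ((Subgroup.orderOf_coe _).symm.trans o))
    exact ⟨⟨n, congrArg Subtype.val hn⟩, fun e => by rw [show r * y * r⁻¹ = 1 from e] at o; simp at o⟩
  have e3 : 64 < Nat.card ↥((Q : Subgroup G) ⊓ centralizer {(y : G)}) := by
    by_contra hn
    have := Nat.mul_le_mul (not_lt.1 hn) e2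
    omega
  have sub : (zpowers (y : G) : Set G) \ {1} ⊆ {u | u ∈ (Q : Subgroup G) ∧ χ u = -(8 : ℕ)} := by
    rintro _ ⟨⟨n, rfl⟩, hn⟩
    have hm : (y : G) ^ n ∈ (Q : Subgroup G) := (Q : Subgroup G).zpow_mem y.2.1 n
    refine ⟨hm, (h.val _ hn (pe_of_pgroup Q.isPGroup' hm)).resolve_right fun e => ?_⟩
    have := Nat.le_of_dvd (by norm_num) ((card_dvd_cc (R := (Q : Subgroup G) ⊓ centralizer {(y : G)})
      fun r hr => (Commute.zpow_right (mem_centralizer_singleton_iff.1 hr.2) n).eq).trans e.2)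
    omega
  have e := Set.eq_of_subset_of_ncard_le sub (by rw [c7, h.syl Q cQ])
  obtain ⟨⟨i, rfl⟩, -⟩ := e.ge ⟨ha, h.inv rfl a oa⟩
  obtain ⟨⟨j, rfl⟩, -⟩ := e.ge ⟨hb, h.inv rfl b ob⟩
  exact hab (Commute.zpow_zpow_self _ i j)

omit hG h in
theorem XD.se [IsSimpleGroup G] {χ : G → ℤ} (hG : Nat.card G = 5515776) (h : XD G 2 8 χ) :
    ∃ M : Subgroup G, M ≠ ⊤ ∧ (∀ w g : G, orderOf w = 2 → w ∈ M → g * w * g⁻¹ ∈ M → g ∈ M) ∧
      (∀ w : G, orderOf w = 2 → ∃ g, g * w * g⁻¹ ∈ M) ∧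
      ∃ u v : G, orderOf u = 2 ∧ orderOf v = 2 ∧ u ≠ v ∧ u * v = v * u := by
  have := Fact.mk Nat.prime_two
  obtain ⟨Q⟩ : Nonempty (Sylow 2 G) := inferInstance
  set J : Set G := {u | u ∈ Q ∧ orderOf u = 2} with hJ
  have hQM : (Q : Subgroup G) ≤ normalizer J := fun r hr => mem_normalizer_fintype fun u hu =>
    ⟨mul_mem (mul_mem hr hu.1) (inv_mem hr), (M11.orderOf_conj' r u).trans hu.2⟩
  have cj : ∀ (M : Subgroup G), (Q : Subgroup G) ≤ M → ∀ w ∈ M, orderOf w = 2 →
      ∃ n ∈ M, n⁻¹ * w * n ∈ J := fun M hM w hw ow => by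
    obtain ⟨n, hn, e⟩ := ((isSylowIn_top Q).of_le hM le_top).exists_le_conj (pe_of_ord ow).pgroup
      (zpowers_le.2 hw)
    obtain ⟨u, hu, rfl⟩ := e (mem_zpowers w)
    exact ⟨n, hn, by simpa [mul_assoc] using hu, by
      simpa [mul_assoc] using (M11.orderOf_conj' n u).symm.trans ow⟩
  have hJM : ∀ w ∈ normalizer J, orderOf w = 2 → w ∈ J := fun w hw ow => by
    obtain ⟨n, hn, e⟩ := cj _ hQM w hw ow
    exact (mem_set_normalizer_iff''.1 hn w).2 e
  have hJw : ∀ w ∈ J, ∀ t, orderOf t = 2 → Commute t w → t ∈ J := fun w hw => by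
    obtain ⟨Q', hQ'⟩ := h.exists_syl hG hw.2
    obtain ⟨g, rfl⟩ := MulAction.exists_smul_eq G Q Q'
    have e : J = (fun u => g * u * g⁻¹) '' J := Set.eq_of_subset_of_ncard_le (fun u hu => by
      obtain ⟨v, hv, rfl⟩ := hQ' u hu.2 (h.comm8 hG Q hu.1 hw.1 hu.2 hw.2)
      exact ⟨v, ⟨hv, (M11.orderOf_conj' g v).symm.trans hu.2⟩, rfl⟩) Set.ncard_image_le
    intro t ht hc
    obtain ⟨v, hv, rfl⟩ := hQ' t ht hc
    exact e.ge ⟨v, ⟨hv, (M11.orderOf_conj' g v).symm.trans ht⟩, rfl⟩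
  obtain ⟨z, hz, oz⟩ := exists_mem_orderOf_eq_of_dvd_card (H := (Q : Subgroup G)) Nat.prime_two
    (by rw [card_syl8 hG Q]; norm_num)
  refine ⟨normalizer J, fun e => ?_, fun w g ow hw hg => ?_, fun w ow => ?_, ?_⟩
  · have h1 : normalClosure {z} ≤ (Q : Subgroup G) := closure_le _ |>.2 fun x hx => by
      obtain ⟨_, rfl, hc⟩ := Group.mem_conjugatesOfSet_iff.1 hx
      exact (hJM x (e ▸ mem_top x) ((orderOf_eq_of_isConj hc).symm.trans oz)).1
    rcases (inferInstance : (normalClosure ({z} : Set G)).Normal).eq_bot_or_eq_top with e' | e'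
    · have := mem_bot.1 (e'.le (subset_normalClosure rfl))
      rw [this] at oz
      simp at oz
    · have := card_le_of_le h1
      rw [e', card_top, card_syl8 hG Q] at this
      omega
  · have k1 := hJM w hw ow
    have k2 := hJM _ hg ((M11.orderOf_conj' g w).trans ow)
    exact mem_normalizer_fintype fun u hu => hJw _ k2 _ ((M11.orderOf_conj' g u).trans hu.2)
      (commute_conj g (h.comm8 hG Q hu.1 k1.1 hu.2 ow))
  · obtain ⟨n, -, e⟩ := cj ⊤ le_top w (mem_top w) ow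
    exact ⟨n⁻¹, by rw [inv_inv]; exact hQM e.1⟩
  · obtain ⟨g, k1, k2⟩ := Block.exists_conj_ne_of_simple (by omega) Q oz hz
    have o := (M11.orderOf_conj' g z).trans oz
    exact ⟨_, z, o, oz, k2, h.comm8 hG Q k1 hz o oz⟩

end Cfsg.Agent.U45
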