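import Cfsg.Agent.U45.Defs
import Cfsg.Agent.PSL2Rec.TwoFix
import Cfsg.Agent.Mat.Frob

/-!
# The number of Sylow `p`-subgroups for the orders of `PSU₃(7)` and `PSU₃(9)`
-/

set_option autoImplicit false

namespace Cfsg.Agent.U45

open Subgroup Cfsg.Agent.M11 Cfsg.Agent.Local
open scoped Pointwise

theorem uniq_syl {H : Type*} [Group H] [Finite H] {p k m : ℕ} [hp : Fact p.Prime]
    (hH : Nat.card H = p ^ k * m) (hm : ¬ p ∣ m) (h : ∀ d, d ∣ m → d % p = 1 % p → d = 1)
    {A B : Subgroup H} (hA : Nat.card A = p ^ k) (hB : Nat.card B = p ^ k) : A = B := by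
  have hf : (Nat.card H).factorization p = k := by
    rw [hH, Nat.factorization_mul (pow_ne_zero _ hp.out.ne_zero) (by rintro rfl; simp at hm),
      hp.out.factorization_pow]
    simp [Nat.factorization_eq_zero_of_not_dvd hm]
  have h1 : Nat.card (Sylow p H) = 1 := h _ (by
    have e := A.card_mul_index
    rw [hA, hH] at e
    rw [← Nat.eq_of_mul_eq_mul_left (pow_pos hp.out.pos _) e]
    exact (Sylow.ofCard A (hf ▸ hA)).card_dvd_index) (card_sylow_modEq_one p H)
  have := (Nat.card_eq_one_iff_unique.1 h1).1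
  exact congrArg Sylow.toSubgroup (Subsingleton.elim (Sylow.ofCard A (hf ▸ hA))
    (Sylow.ofCard B (hf ▸ hB)))

variable {G : Type*} [Group G] [Finite G] {p q : ℕ} {χ : G → ℤ}

omit [Finite G] in
theorem PE.conj {u : G} (h : PE p u) (g : G) : PE p (g * u * g⁻¹) :=
  h.imp fun k hk => by rw [conj_pow, hk]; simp

omit [Finite G] in
theorem PE.pgroup {u : G} (h : PE p u) : IsPGroup p (zpowers u) := by
  obtain ⟨k, hk⟩ := h
  rintro ⟨_, n, rfl⟩
  exact ⟨k, Subtype.ext (by
    change (u ^ n) ^ p ^ k = 1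
    rw [← zpow_natCast, ← zpow_mul, mul_comm, zpow_mul, zpow_natCast, hk, one_zpow])⟩

omit [Finite G] in
theorem pe_of_card {Q : Subgroup G} {k : ℕ} (hQ : Nat.card Q = p ^ k) {u : G} (hu : u ∈ Q) :
    PE p u := ⟨k, orderOf_dvd_iff_pow_eq_one.1 (hQ ▸ orderOf_dvd_card_of_mem hu)⟩

theorem XD.norm7 (hG : Nat.card G = 5663616) (h : XD G 7 7 χ) {x : G} (hx : PE 7 x)
    (hχ : χ x = -(7 : ℕ)) {Q : Subgroup G} (hQ : Nat.card Q = 7 ^ 3) (hle : Q ≤ centralizer {x}) :
    centralizer {x} ≤ normalizer (Q : Set G) := by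
  have := Fact.mk (show Nat.Prime 7 by norm_num)
  have := Fact.mk Nat.prime_two
  have hc : Nat.card (centralizer ({x} : Set G)) = 2744 := by
    obtain ⟨h1, h2⟩ := h.ccX x hx hχ
    have := Nat.le_of_dvd (by norm_num) h1
    change cc x = _
    omega
  set C := centralizer ({x} : Set G) with hC
  have hQ' : Nat.card (Q.subgroupOf C) = 343 := by rw [Pres.card_subgroupOf_of_le hle, hQ]; rfl
  have hi : (Q.subgroupOf C).index = 8 := by
    have := (Q.subgroupOf C).card_mul_index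
    rw [hQ', hc] at this
    omega
  set K := (Q.subgroupOf C).normalCore with hK
  have h1 : K.index ∣ 40320 := by
    rw [hK, normalCore_eq_ker, index_ker]
    have := card_subgroup_dvd_card (MulAction.toPermHom C (C ⧸ Q.subgroupOf C)).range
    rwa [Nat.card_perm, ← index, hi] at this
  have h2 := K.card_mul_index
  obtain ⟨i, hi3, h3⟩ := (Nat.dvd_prime_pow (p := 7) (by norm_num)).1
    (show Nat.card K ∣ 7 ^ 3 from (card_dvd_of_le (normalCore_le _)).trans hQ'.dvd)
  have h4 : i = 2 ∨ i = 3 := by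
    rw [hc, h3] at h2
    generalize K.index = n at h1 h2
    interval_cases i
    · obtain rfl : n = 2744 := by omega
      norm_num at h1
    · obtain rfl : n = 392 := by omega
      norm_num at h1
    · simp
    · simp
  rcases h4 with rfl | rfl
  swap
  · have e : K = Q.subgroupOf C := eq_of_le_of_card_ge (normalCore_le _) (by rw [h3, hQ']; rfl)
    have hn : (Q.subgroupOf C).Normal := e ▸ inferInstance
    exact fun c hc => mem_normalizer_of_conj_mem fun u hu =>
      hn.conj_mem ⟨u, hle hu⟩ hu ⟨c, hc⟩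
  exfalso
  have hxC : x ∈ C := mem_centralizer_singleton_iff.2 rfl
  have hxQ : x ∈ Q := by
    refine (isSylowIn_of_card (p := 7) hle (by
      rw [hQ, hc, show 2744 = 7 ^ 3 * 8 by norm_num, Nat.factorization_mul (by norm_num) (by norm_num),
        Nat.Prime.factorization_pow (by norm_num)]
      simp [Nat.factorization_eq_zero_of_not_dvd])).le_of_le_normalizer hx.pgroup
      (zpowers_le.2 hxC) (fun u hu => mem_normalizer_of_conj_mem fun n hn => ?_) (mem_zpowers x)
    obtain ⟨n, rfl⟩ := mem_zpowers_iff.1 hn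
    rw [(Commute.zpow_right (mem_centralizer_singleton_iff.1 (hle hu)) n).eq, mul_inv_cancel_right]
    exact hn
  set D := K.map C.subtype with hD
  have hDQ : D ≤ Q := by rintro _ ⟨u, hu, rfl⟩; exact normalCore_le (Q.subgroupOf C) hu
  have cD : (D : Set G).ncard = 49 := by
    change Nat.card D = _
    rw [hD, card_map_of_injective C.subtype_injective, h3]; rfl
  have hxD : x ∈ D := ⟨⟨x, hxC⟩, fun c => by
    change (c : G) * x * (c : G)⁻¹ ∈ Q
    rw [mem_centralizer_singleton_iff.1 c.2, mul_inv_cancel_right]; exact hxQ, rfl⟩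
  obtain ⟨E, hE⟩ := exists_isSylowIn 2 C
  have cE : Nat.card E = 8 := by
    rw [hE.card_eq, hc, show 2744 = 2 ^ 3 * 343 by norm_num,
      Nat.factorization_mul (by norm_num) (by norm_num), Nat.Prime.factorization_pow (by norm_num)]
    simp [Nat.factorization_eq_zero_of_not_dvd]
  have h1χ : χ 1 ≠ -(7 : ℕ) := by rw [h.one]; norm_num
  set T : Set G := insert 1 {u | u ∈ D ∧ χ u = -(7 : ℕ)} with hT
  have h5 := Mat.card_dvd_of_free (R := E) (X := (D : Set G) \ T) (fun r hr u hu => ⟨by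
      obtain ⟨⟨v, hv, rfl⟩, -⟩ := hu
      exact ⟨_, (inferInstance : K.Normal).conj_mem v hv ⟨r, hE.le hr⟩, rfl⟩, by
      rintro (e | e)
      · exact hu.2 (Or.inl (by simpa using e))
      · exact hu.2 (Or.inr ⟨hu.1, by rw [← e.2, h.conj]⟩)⟩) fun r hr u hu hc => by
    rcases h.val u (fun e => hu.2 (Or.inl e)) (pe_of_card hQ (hDQ hu.1)) with e | ⟨-, e⟩
    · exact absurd (Or.inr ⟨hu.1, e⟩) hu.2
    · exact orderOf_eq_one_iff.1 (Nat.eq_one_of_dvd_coprimes (show Nat.Coprime 8 (7 ^ 2) by norm_num)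
        (cE ▸ orderOf_dvd_card_of_mem hr) ((orderOf_dvd_cc hc.eq).trans e))
  have hTD : T ⊆ D := by
    rintro u (rfl | hu)
    · exact one_mem D
    · exact hu.1
  rw [Set.ncard_diff hTD, cD, cE, hT, Set.ncard_insert_of_notMem (fun e => h1χ e.2)] at h5
  have h6 : {u | u ∈ D ∧ χ u = -(7 : ℕ)}.ncard ≤ 7 - 1 := by
    rw [← h.syl Q hQ]
    exact Set.ncard_le_ncard fun u hu => ⟨hDQ hu.1, hu.2⟩
  have h7 : 0 < {u | u ∈ D ∧ χ u = -(7 : ℕ)}.ncard := (Set.ncard_pos).2 ⟨x, hxD, hχ⟩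
  omega

theorem XD.uniq (hq : (p = 7 ∧ q = 7 ∧ Nat.card G = 5663616) ∨
      (p = 3 ∧ q = 9 ∧ Nat.card G = 42573600)) (h : XD G p q χ) {x : G} (hx : PE p x)
    (hχ : χ x = -q) {Q Q' : Subgroup G} (hQ : Nat.card Q = q ^ 3) (hQ' : Nat.card Q' = q ^ 3)
    (hle : Q ≤ centralizer {x}) (hle' : Q' ≤ centralizer {x}) : Q = Q' := by
  obtain ⟨h1, h2⟩ := h.ccX x hx hχ
  rcases hq with ⟨rfl, rfl, hG⟩ | ⟨rfl, rfl, hG⟩
  · have := Fact.mk (show Nat.Prime 7 by norm_num)
    obtain ⟨c, hc, e⟩ := Pres.exists_conj_of_card (p := 7) hle hle' hQ hQ' fun e => by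
      have := e.trans h1
      norm_num at this
    rw [← e, ← conj_smul_eq_map, mem_normalizer_iff_conj_smul_eq.1 (h.norm7 hG hx hχ hQ hle hc)]
  have := Fact.mk Nat.prime_three
  have := Fact.mk Nat.prime_two
  have hc : Nat.card (centralizer ({x} : Set G)) = 7290 := by
    have := Nat.le_of_dvd (by norm_num) h1
    change cc x = _
    omega
  set C := centralizer ({x} : Set G) with hC
  obtain ⟨S⟩ : Nonempty (Sylow 2 C) := inferInstance
  obtain ⟨M, hM⟩ := PSL2Rec.exists_index_two_of_cyclic_sylow (Γ := C) (by rw [hc]; norm_num) S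
    (isCyclic_of_prime_card (p := 2) (by
      rw [card_sylow_eq S 1 3645 hc (by norm_num)]; rfl))
  have cM : Nat.card M = 3 ^ 6 * 5 := by
    have := M.card_mul_index
    rw [hM, hc] at this
    omega
  have key : ∀ {Q : Subgroup G}, Nat.card Q = 9 ^ 3 → Q ≤ C → Q.subgroupOf C ≤ M ∧
      Nat.card ((Q.subgroupOf C).subgroupOf M) = 3 ^ 6 := fun {Q} hQ hle => by
    have c1 : Nat.card (Q.subgroupOf C) = 729 := by rw [Pres.card_subgroupOf_of_le hle, hQ]; rfl
    have : Q.subgroupOf C ≤ M := fun u hu => by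
      have h1 : u ^ 729 = 1 := orderOf_dvd_iff_pow_eq_one.1 (c1 ▸ orderOf_dvd_card_of_mem hu)
      have := sq_mem_of_index_two hM (u ^ 365)
      rwa [← pow_mul, show 365 * 2 = 729 + 1 from rfl, pow_succ, h1, one_mul] at this
    exact ⟨this, by rw [Pres.card_subgroupOf_of_le this, c1]; rfl⟩
  have e := uniq_syl (p := 3) cM (by norm_num) (fun d hd e => by
    rcases (Nat.dvd_prime (by norm_num)).1 hd with rfl | rfl
    · rfl
    · omega) (key hQ hle).2 (key hQ' hle').2
  rw [subgroupOf_inj, inf_eq_left.2 (key hQ hle).1, inf_eq_left.2 (key hQ' hle').1, subgroupOf_inj,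
    inf_eq_left.2 hle, inf_eq_left.2 hle'] at e
  exact e

theorem XD.cent (hq : (p = 7 ∧ q = 7 ∧ Nat.card G = 5663616) ∨
      (p = 3 ∧ q = 9 ∧ Nat.card G = 42573600)) (h : XD G p q χ) {Q : Subgroup G}
    (hQ : Nat.card Q = q ^ 3) {w : G} (hw : w ∈ Q) (hχ : χ w = -q) : Q ≤ centralizer {w} := by
  have h1 := card_inf_centralizer_mul Q w
  have h2 : {v | ∃ r ∈ Q, r * w * r⁻¹ = v}.ncard ≤ q - 1 := by
    rw [← h.syl Q hQ]
    refine Set.ncard_le_ncard ?_
    rintro _ ⟨r, hr, rfl⟩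
    exact ⟨mul_mem (mul_mem hr hw) (inv_mem hr), by rw [h.conj, hχ]⟩
  generalize {v | ∃ r ∈ Q, r * w * r⁻¹ = v}.ncard = n at h1 h2
  have h3 : n ∣ q ^ 3 := hQ ▸ Dvd.intro_left _ h1
  suffices n = 1 by
    subst this
    exact inf_eq_left.1 (eq_of_le_of_card_ge inf_le_left (by omega))
  have hq' := hq
  rcases hq with ⟨rfl, rfl, hG⟩ | ⟨rfl, rfl, hG⟩
  · have : n ≤ 6 := h2
    interval_cases n <;> simp_all
  by_contra hn
  obtain rfl : n = 3 := by
    have : n ≤ 8 := h2
    interval_cases n <;> simp_all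
  have := Fact.mk Nat.prime_three
  have hQ6 : Nat.card Q = 3 ^ 6 := hQ
  have : Nontrivial Q := Finite.one_lt_card_iff_nontrivial.1 (by omega)
  have := (IsPGroup.of_card hQ6).center_nontrivial
  obtain ⟨⟨z, hz⟩, hz1⟩ := exists_ne (1 : center Q)
  have hzc : ∀ r ∈ Q, r * z = z * r := fun r hr => congrArg Subtype.val (mem_center_iff.1 hz ⟨r, hr⟩)
  have hzp := pe_of_card hQ6 z.2
  have hzX : χ z = -(9 : ℕ) := (h.val z (fun e => hz1 (Subtype.ext (Subtype.ext e))) hzp).resolve_right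
    fun e => by
      have := (card_dvd_cc hzc).trans e.2
      rw [hQ] at this
      norm_num at this
  obtain ⟨k1, k2⟩ := h.ccX z hzp hzX
  have k3 : cc (z : G) = 7290 := by
    have := Nat.le_of_dvd (by norm_num) k1
    omega
  obtain ⟨s, hs, hsz⟩ := exists_of_prime_dvd_cc Nat.prime_five (g := (z : G)) (by rw [k3]; norm_num)
  have hsQ : s ∈ normalizer (Q : Set G) := mem_normalizer_iff_conj_smul_eq.2
    (h.uniq hq' hzp hzX ((card_conj_smul s Q).trans hQ) hQ (by
      rintro _ ⟨r, hr, rfl⟩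
      exact mul_mem (mul_mem (mem_centralizer_singleton_iff.2 hsz.eq)
        (mem_centralizer_singleton_iff.2 (hzc r hr))) (inv_mem (mem_centralizer_singleton_iff.2 hsz.eq)))
      fun r hr => mem_centralizer_singleton_iff.2 (hzc r hr))
  have m1 := Small.card_modEq_cent Nat.prime_five hs hsQ
  set Y := Q ⊓ centralizer ({s} : Set G) with hY
  have h1χ : χ 1 ≠ -(9 : ℕ) := by rw [h.one]; norm_num
  have hsub : (Y : Set G) ⊆ insert 1 {u | u ∈ Q ∧ χ u = -(9 : ℕ)} := fun u hu => by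
    by_cases u1 : u = 1
    · exact Or.inl u1
    refine Or.inr ⟨hu.1, (h.val u u1 (pe_of_card hQ6 hu.1)).resolve_right fun e => ?_⟩
    have := (orderOf_dvd_cc (mem_centralizer_singleton_iff.1 hu.2).symm).trans e.2
    rw [hs] at this
    norm_num at this
  have c9 : (insert 1 {u | u ∈ Q ∧ χ u = -(9 : ℕ)} : Set G).ncard = 9 := by
    rw [Set.ncard_insert_of_notMem (fun e => h1χ e.2), h.syl Q hQ]
  have cY : Nat.card Y = 9 := by
    have a1 : Nat.card Y ≤ 9 := c9 ▸ Set.ncard_le_ncard hsub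
    have a2 : Nat.card Y ∣ 729 := (card_dvd_of_le inf_le_left).trans hQ.dvd
    rw [hQ] at m1
    unfold Nat.ModEq at m1
    generalize Nat.card Y = y at a1 a2 m1
    interval_cases y <;> simp_all
  have hwY : w ∈ Y := (Set.eq_of_subset_of_ncard_le hsub (by rw [c9]; exact cY.ge)).ge (Or.inr ⟨hw, hχ⟩)
  have m2 := Small.card_modEq_cent (K := Q ⊓ centralizer {w}) Nat.prime_five hs
    (mem_normalizer_of_conj_mem fun n hn => ⟨conj_mem_of_mem_normalizer hsQ hn.1, by
      have hsw : s ∈ centralizer {w} :=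
        mem_centralizer_singleton_iff.2 (mem_centralizer_singleton_iff.1 hwY.2).symm
      exact (centralizer {w}).mul_mem (mul_mem hsw hn.2) (inv_mem hsw)⟩)
  rw [inf_right_comm, ← hY, inf_eq_left.2 (show Y ≤ centralizer {w} from fun y hy =>
    mem_centralizer_singleton_iff.2 (comm_of_card_nine cY hy hwY)), cY] at m2
  unfold Nat.ModEq at m2
  omega

theorem XD.card_syl [Fact p.Prime] (hq : (p = 7 ∧ q = 7 ∧ Nat.card G = 5663616) ∨
      (p = 3 ∧ q = 9 ∧ Nat.card G = 42573600)) (P : Sylow p G) :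
    Nat.card P = q ^ 3 ∧ ∃ k, Nat.card P = p ^ k := by
  refine ⟨?_, P.isPGroup'.exists_card_eq⟩
  rcases hq with ⟨rfl, rfl, hG⟩ | ⟨rfl, rfl, hG⟩
  · exact card_sylow_eq P 3 16512 hG (by norm_num)
  · exact card_sylow_eq P 6 58400 hG (by norm_num)

theorem XD.card_sylow {p q : ℕ} [Fact p.Prime] {χ : G → ℤ}
    (hq : (p = 7 ∧ q = 7 ∧ Nat.card G = 5663616) ∨ (p = 3 ∧ q = 9 ∧ Nat.card G = 42573600))
    (h : XD G p q χ) : Nat.card (Sylow p G) = q ^ 3 + 1 := by
  have ex : ∀ u : G, ∃ P : Sylow p G, PE p u → u ∈ P := fun u => by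
    by_cases hu : PE p u
    · obtain ⟨P, hP⟩ := hu.pgroup.exists_le_sylow
      exact ⟨P, fun _ => hP (mem_zpowers u)⟩
    · exact ⟨Classical.arbitrary _, fun e => absurd e hu⟩
  choose f hf using ex
  have := ncard_eq_mul_of_fibers (s := {u : G | PE p u ∧ χ u = -q}) (Set.toFinite _)
    (t := Set.univ) f (d := q - 1) (fun _ _ => trivial) (Set.toFinite _) fun P _ => by
      obtain ⟨c1, k, c2⟩ := XD.card_syl hq P
      rw [← h.syl P c1]
      congr 1
      ext u
      refine ⟨fun hu => ⟨hu.2 ▸ hf u hu.1.1, hu.1.2⟩, fun hu => ?_⟩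
      have hp := pe_of_card c2 hu.1
      have c3 := (XD.card_syl hq (f u)).1
      exact ⟨⟨hp, hu.2⟩, Sylow.ext (h.uniq hq hp hu.2 c3 c1 (h.cent hq c3 (hf u hp) hu.2)
        (h.cent hq c1 hu.1 hu.2))⟩
  rw [h.cntX, Set.ncard_univ] at this
  refine (Nat.eq_of_mul_eq_mul_right ?_ this).symm
  omega

end Cfsg.Agent.U45
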