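import Cfsg.Agent.U45.B1

set_option autoImplicit false
set_option maxRecDepth 100000

namespace Cfsg.Agent.U45

open Cfsg.Agent.M11 Cfsg.Agent.Small

theorem tb_114912_6 : killT 19 19 (114912, 6, 1, [[7, 18, 32, 56, 63, 96, 108, 189]]) = true := by
  decide +kernel

theorem tb_229824_6 : killT 19 19 (229824, 6, 2, [[56, 96, 108, 189]]) = true := by
  decide +kernel

theorem tb_344736_6 : killT 19 19 (344736, 6, 3, [[56, 96, 108, 189]]) = true := by
  decide +kernel

theorem tb_459648_6 : killT 19 19 (459648, 6, 4, [[56, 96, 108, 189]]) = true := by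
  decide +kernel

theorem tb_689472_6 : killT 19 19 (689472, 6, 6, [[56, 96, 108, 189]]) = true := by
  decide +kernel

theorem tb_919296_6 : killT 19 19 (919296, 6, 8, [[56, 96, 108, 189]]) = true := by
  decide +kernel

theorem tb_1378944_6 : killT 19 19 (1378944, 6, 12, [[56, 96, 108, 189]]) = true := by
  decide +kernel

theorem tb_1378944_9 : killT 19 19 (1378944, 9, 8, [[48, 56, 189, 378, 1008]]) = true := by
  decide +kernel

theorem tb_1838592_6 : killT 19 19 (1838592, 6, 16, [[56, 96, 108, 189]]) = true := by
  decide +kernel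

theorem tb_2757888_6 : killT 19 19 (2757888, 6, 24, [[56, 96, 108, 189]]) = true := by
  decide +kernel

theorem tb_2757888_9 : killT 19 19 (2757888, 9, 16, [[48, 56, 112, 189, 324, 378, 864, 1008]]) = true := by
  decide +kernel

theorem tb_5515776_6 : killT 19 19 (5515776, 6, 48, [[56, 96, 108, 189]]) = true := by
  decide +kernel

theorem tb_5515776_9 : killT 19 19 (5515776, 9, 32, [[48, 56, 112, 189, 324, 378, 864, 1008]]) = true := by
  decide +kernel

end Cfsg.Agent.U45
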