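import Cfsg.Agent.U45.B1

set_option autoImplicit false
set_option maxRecDepth 100000

namespace Cfsg.Agent.U45

open Cfsg.Agent.M11 Cfsg.Agent.Small

theorem s7a : killA 172368 7 19 [(3, 4), (6, 2), (3, 18), (6, 9)] = true := by
  decide +kernel

theorem s7a1 : killT 7 19 (172368, 3, 4, [[18, 57, 76]]) = true := by
  decide +kernel

theorem s7a2 : killT 7 19 (172368, 6, 2, [[27, 36, 57, 76, 162, 216]]) = true := by
  decide +kernel

theorem s7a3 : killT 7 19 (172368, 3, 18, [[18, 57, 76]]) = true := by
  decide +kernel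

theorem s7b : killA 344736 7 19 [(3, 1), (3, 8), (6, 4), (3, 36), (6, 18)] = true := by
  decide +kernel

theorem s7b1 : killT 7 19 (344736, 3, 8, [[18, 57, 76]]) = true := by
  decide +kernel

theorem s7b2 : killT 7 19 (344736, 6, 4, [[27, 36, 57, 76, 162, 216, 342]]) = true := by
  decide +kernel

theorem s7b3 : killT 7 19 (344736, 3, 36, [[18, 57, 76]]) = true := by
  decide +kernel

theorem s7b4 : killT 7 19 (344736, 6, 18, [[48, 57, 76, 342, 456]]) = true := by
  decide +kernel

theorem s7b5 : K1 344736 7 3 1 (fun _ => true) [[3, 6, 8, 18, 27, 32, 57, 76, 81, 162, 171]] = false := by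
  decide +kernel

theorem s7b6 : K1 344736 19 18 1 (fun d => d % 7 == 0 || [3, 6, 8, 18, 27, 32, 57, 76, 81, 162, 171].contains d) [] = false := by
  decide +kernel

end Cfsg.Agent.U45
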