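import Cfsg.Agent.U45.B1

set_option autoImplicit false
set_option maxRecDepth 100000

namespace Cfsg.Agent.U45

open Cfsg.Agent.M11 Cfsg.Agent.Small

theorem s9a : K1 172368 19 9 1 (fun _ => true) [[9, 18, 56, 112, 324], [18, 28, 36, 189, 324], [18, 48, 56, 189, 324], [36, 48, 56, 189, 324]] = false := by
  decide +kernel

theorem s9a0 : killP (fun c => c % 7 == 0) 172368 19 19 9 1 [9, 18, 56, 112, 324] = true := by
  decide +kernel

theorem s9a1 : killP (fun c => c % 7 == 0) 172368 19 19 9 1 [18, 28, 36, 189, 324] = true := by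
  decide +kernel

theorem s9a2 : killP (fun c => c % 7 == 0) 172368 19 19 9 1 [18, 48, 56, 189, 324] = true := by
  decide +kernel

theorem s9a3 : killP (fun c => c % 7 == 0) 172368 19 19 9 1 [36, 48, 56, 189, 324] = true := by
  decide +kernel

theorem s18a : kill2 689472 19 19 18 2 (kAll 689472) = true := by
  decide +kernel

theorem s18b : kill2 1378944 19 19 18 4 (kAll 1378944) = true := by
  decide +kernel

theorem s18c1 : killP (fun c => Nat.ble 14000 c) 2757888 19 19 18 8 (kAll 2757888) = true := by
  decide +kernel

theorem s18c2 : killP (fun c => Nat.blt c 14000) 2757888 19 19 18 8 (kAll 2757888) = true := by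
  decide +kernel

end Cfsg.Agent.U45
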