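import Cfsg.Agent.U45.B1

set_option autoImplicit false
set_option maxRecDepth 100000

namespace Cfsg.Agent.U45

open Cfsg.Agent.M11 Cfsg.Agent.Small

theorem s18d0 : killP (fun c => Nat.blt c 0 || Nat.ble 9000 c) 5515776 19 19 18 16 (kAll 5515776) = true := by
  decide +kernel

theorem s18d1 : killP (fun c => Nat.blt c 9000 || Nat.ble 11000 c) 5515776 19 19 18 16 (kAll 5515776) = true := by
  decide +kernel

end Cfsg.Agent.U45
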