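import Cfsg.Agent.U45.TA
import Cfsg.Agent.U45.TB
import Cfsg.Agent.U45.TC
import Cfsg.Agent.U45.TD
import Cfsg.Agent.U45.TE0
import Cfsg.Agent.U45.TE1
import Cfsg.Agent.U45.TE2

/-!
# Simple groups whose order divides `5515776`
-/

set_option autoImplicit false
set_option maxRecDepth 100000

namespace Cfsg.Agent.U45

open Finset Subgroup Cfsg.Agent.Char Cfsg.Agent.Zass Cfsg.Agent.Local Cfsg.Agent.M11 Cfsg.Agent.Small

variable {G : Type*} [Group G] [Finite G] [IsSimpleGroup G] (hna : ¬ IsMulCommutative G)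
  {x : G} {T : Finset (IrrCharacter G)}
include hna

theorem dead9 (hG : Nat.card G = 172368) (h : KD 19 9 1 x T) : False := by
  have := Fact.mk (by norm_num : Nat.Prime 7)
  obtain ⟨y, hy⟩ := exists_prime_orderOf_dvd_card' (G := G) 7 (by rw [hG]; norm_num)
  obtain ⟨e, X, T7, h7⟩ := exists_KD hna (by rw [hG]; norm_num) (p := 7) (by norm_num) (by norm_num)
    (by norm_num) (by rw [hG]; norm_num) hy
  have h1 := h7.mem_of hna (by norm_num) (b := 19) (by norm_num) (by rw [hG]; norm_num)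
    (by rw [hG]; norm_num) (hG ▸ s7a)
  simp only [List.mem_cons, Prod.mk.injEq, List.not_mem_nil, or_false] at h1
  rcases h1 with ⟨rfl, rfl⟩ | ⟨rfl, rfl⟩ | ⟨rfl, rfl⟩ | ⟨rfl, rfl⟩
  · exact h7.deadT hna (by norm_num) hG (by norm_num) (by norm_num) s7a1
  · exact h7.deadT hna (by norm_num) hG (by norm_num) (by norm_num) s7a2
  · exact h7.deadT hna (by norm_num) hG (by norm_num) (by norm_num) s7a3
  obtain ⟨s, hs, h2⟩ := h.surv hna (by norm_num) hG (b := 19) (by norm_num) (by norm_num)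
  have h3 := h7.not_dvd (by norm_num) (by norm_num) (by rw [hG]; norm_num) hs (by norm_num)
  obtain ⟨D, hD, h4⟩ := h.st1 _ _ (fun _ _ => rfl) (hG ▸ s9a)
  simp only [List.mem_cons, List.not_mem_nil, or_false] at hD
  rcases hD with rfl | rfl | rfl | rfl
  · exact h3 (by simpa using h2 _ _ h4 s9a0)
  · exact h3 (by simpa using h2 _ _ h4 s9a1)
  · exact h3 (by simpa using h2 _ _ h4 s9a2)
  · exact h3 (by simpa using h2 _ _ h4 s9a3)

theorem dead18 (hG : Nat.card G = 344736) (h : KD 19 18 1 x T) : False := by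
  have := Fact.mk (by norm_num : Nat.Prime 7)
  obtain ⟨y, hy⟩ := exists_prime_orderOf_dvd_card' (G := G) 7 (by rw [hG]; norm_num)
  obtain ⟨e, X, T7, h7⟩ := exists_KD hna (by rw [hG]; norm_num) (p := 7) (by norm_num) (by norm_num)
    (by norm_num) (by rw [hG]; norm_num) hy
  have h1 := h7.mem_of hna (by norm_num) (b := 19) (by norm_num) (by rw [hG]; norm_num)
    (by rw [hG]; norm_num) (hG ▸ s7b)
  simp only [List.mem_cons, Prod.mk.injEq, List.not_mem_nil, or_false] at h1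
  rcases h1 with ⟨rfl, rfl⟩ | ⟨rfl, rfl⟩ | ⟨rfl, rfl⟩ | ⟨rfl, rfl⟩ | ⟨rfl, rfl⟩
  rotate_left
  · exact h7.deadT hna (by norm_num) hG (by norm_num) (by norm_num) s7b1
  · exact h7.deadT hna (by norm_num) hG (by norm_num) (by norm_num) s7b2
  · exact h7.deadT hna (by norm_num) hG (by norm_num) (by norm_num) s7b3
  · exact h7.deadT hna (by norm_num) hG (by norm_num) (by norm_num) s7b4
  obtain ⟨D, hD, h4⟩ := h7.st1 _ _ (fun _ _ => rfl) (hG ▸ s7b5)
  rw [List.mem_singleton] at hD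
  subst hD
  obtain ⟨D, hD, -⟩ := h.st1 _ _ (fun χ hχ => by
    rw [Bool.or_eq_true, beq_iff_eq, List.contains_iff_mem]
    exact or_iff_not_imp_left.2 fun e =>
      h4 χ (h7.mem rfl χ (h.ne1 χ hχ) fun e' => e (Nat.mod_eq_zero_of_dvd e'))) (hG ▸ s7b6)
  cases hD

theorem dead18c (hG : Nat.card G = 2757888) (h : KD 19 18 8 x T) : False := by
  obtain ⟨s, -, h2⟩ := h.surv hna (by norm_num) hG (b := 19) (by norm_num) (by norm_num)
  have h4 := hG ▸ h.mem_kAll hna (by rw [hG]; norm_num)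
  have h5 := h2 _ _ h4 s18c1
  have h6 := h2 _ _ h4 s18c2
  simp only [Nat.ble_eq, Nat.blt_eq] at h5 h6
  omega

theorem dead18d (hG : Nat.card G = 5515776) (h : KD 19 18 16 x T) : False := by
  obtain ⟨s, -, h2⟩ := h.surv hna (by norm_num) hG (b := 19) (by norm_num) (by norm_num)
  have h4 := hG ▸ h.mem_kAll hna (by rw [hG]; norm_num)
  have h3 := Nat.le_of_dvd (by norm_num) (hG ▸ cc_dvd s)
  have a0 := h2 _ _ h4 s18d0
  have a1 := h2 _ _ h4 s18d1
  have a2 := h2 _ _ h4 s18d2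
  have a3 := h2 _ _ h4 s18d3
  have a4 := h2 _ _ h4 s18d4
  have a5 := h2 _ _ h4 s18d5
  simp only [Nat.ble_eq, Nat.blt_eq, Bool.or_eq_true] at a0 a1 a2 a3 a4 a5
  omega

theorem dead18e {N X : ℕ} (hG : Nat.card G = N) (h : KD 19 18 X x T)
    (hN : ¬ 19 * 19 ∣ N ∧ N ≤ 5600000 ∧ 19 ∣ N) (hk : kill2 N 19 19 18 X (kAll N) = true) : False := by
  subst hG
  exact h.not_kill hna (by norm_num) (by norm_num) hN.1 (by norm_num) hN.2.1 hN.2.2
    (h.mem_kAll hna hN.2.1) hk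

omit hna in
theorem tabA_cases : ∀ t ∈ tabA, ∀ c ∈ t.2, (t.1, c) ∈ [(114912, 6, 1), (172368, 9, 1), (229824, 6, 2),
    (344736, 6, 3), (344736, 18, 1), (459648, 6, 4), (689472, 6, 6), (689472, 18, 2), (919296, 6, 8),
    (1378944, 6, 12), (1378944, 9, 8), (1378944, 18, 4), (1838592, 6, 16), (2757888, 6, 24),
    (2757888, 9, 16), (2757888, 18, 8), (5515776, 6, 48), (5515776, 9, 32), (5515776, 18, 16),
    (5515776, 3, 1)] := by
  decide +kernel

theorem np8 (hd : Nat.card G ∣ 5515776) (hr : 19 ∣ Nat.card G) :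
    Nat.card G = 5515776 ∧ NP G 19 3 := by
  have := Fact.mk (by norm_num : Nat.Prime 19)
  have hN : Nat.card G ≤ 5600000 := (Nat.le_of_dvd (by norm_num) hd).trans (by norm_num)
  have key : ∀ x : G, orderOf x = 19 → Nat.card G = 5515776 ∧ cc x = 19 ∧
      Nat.card (normalizer (zpowers x : Set G)) = 19 * 3 := fun x hx => by
    obtain ⟨e, X, T, h⟩ := exists_KD hna hN (p := 19) (by norm_num) (by norm_num) (by norm_num)
      (fun e => by have := e.trans hd; norm_num at this) hx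
    obtain ⟨t, ht, h1⟩ := tabA_mem _ (mem_kdv (by norm_num) (by norm_num) hd)
      (by have := four_dvd hna; omega)
    have h2 := tabA_cases t ht _ (h.mem_of hna (by norm_num) (by norm_num) hN hr (h1 ▸ tabA_all ht))
    rw [h1] at h2
    simp only [List.mem_cons, Prod.mk.injEq, List.not_mem_nil, or_false] at h2
    have p19 : Nat.Prime 19 := by norm_num
    rcases h2 with ⟨hG, rfl, rfl⟩ | ⟨hG, rfl, rfl⟩ | ⟨hG, rfl, rfl⟩ | ⟨hG, rfl, rfl⟩ |
      ⟨hG, rfl, rfl⟩ | ⟨hG, rfl, rfl⟩ | ⟨hG, rfl, rfl⟩ | ⟨hG, rfl, rfl⟩ | ⟨hG, rfl, rfl⟩ |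
      ⟨hG, rfl, rfl⟩ | ⟨hG, rfl, rfl⟩ | ⟨hG, rfl, rfl⟩ | ⟨hG, rfl, rfl⟩ | ⟨hG, rfl, rfl⟩ |
      ⟨hG, rfl, rfl⟩ | ⟨hG, rfl, rfl⟩ | ⟨hG, rfl, rfl⟩ | ⟨hG, rfl, rfl⟩ | ⟨hG, rfl, rfl⟩ | ⟨hG, rfl, rfl⟩
    · exact (h.deadT hna p19 hG p19 (by norm_num) tb_114912_6).elim
    · exact (dead9 hna hG h).elim
    · exact (h.deadT hna p19 hG p19 (by norm_num) tb_229824_6).elim
    · exact (h.deadT hna p19 hG p19 (by norm_num) tb_344736_6).elim
    · exact (dead18 hna hG h).elim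
    · exact (h.deadT hna p19 hG p19 (by norm_num) tb_459648_6).elim
    · exact (h.deadT hna p19 hG p19 (by norm_num) tb_689472_6).elim
    · exact (dead18e hna hG h (by norm_num) s18a).elim
    · exact (h.deadT hna p19 hG p19 (by norm_num) tb_919296_6).elim
    · exact (h.deadT hna p19 hG p19 (by norm_num) tb_1378944_6).elim
    · exact (h.deadT hna p19 hG p19 (by norm_num) tb_1378944_9).elim
    · exact (dead18e hna hG h (by norm_num) s18b).elim
    · exact (h.deadT hna p19 hG p19 (by norm_num) tb_1838592_6).elim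
    · exact (h.deadT hna p19 hG p19 (by norm_num) tb_2757888_6).elim
    · exact (h.deadT hna p19 hG p19 (by norm_num) tb_2757888_9).elim
    · exact (dead18c hna hG h).elim
    · exact (h.deadT hna p19 hG p19 (by norm_num) tb_5515776_6).elim
    · exact (h.deadT hna p19 hG p19 (by norm_num) tb_5515776_9).elim
    · exact (dead18d hna hG h).elim
    · exact ⟨hG, h.ccx, h.nrm⟩
  obtain ⟨x, hx⟩ := exists_prime_orderOf_dvd_card' 19 hr
  exact ⟨(key x hx).1, fun y hy => (key y hy).2⟩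

end Cfsg.Agent.U45
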