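import Cfsg.Agent.U45.B1

/-!
# Sylow arithmetic
-/

set_option autoImplicit false
set_option maxRecDepth 100000

namespace Cfsg.Agent.U45

open Finset Subgroup Cfsg.Agent.Char Cfsg.Agent.Zass Cfsg.Agent.Local Cfsg.Agent.M11 Cfsg.Agent.Small

variable {G : Type*} [Group G] [Finite G] [IsSimpleGroup G] (hna : ¬ IsMulCommutative G)
include hna

theorem np_arith {p : ℕ} (hp : p.Prime) (h2 : p ≠ 2) (hsq : ¬ p * p ∣ Nat.card G) {x : G}
    (hx : orderOf x = p) : ∃ e X n, cc x = p * X ∧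
      Nat.card (normalizer (zpowers x : Set G)) = p * X * e ∧ e ∣ p - 1 ∧ e ≠ 1 ∧ n % p = 1 ∧ n ≠ 1 ∧
      p * X * e * n = Nat.card G := by
  classical
  have := Fintype.ofFinite G
  have := Fact.mk hp
  have h : PP p x := ⟨h2, hx, hsq⟩
  obtain ⟨h3, h4, h5, h6⟩ := h.data hna
  exact ⟨_, _, _, h.cc_eq, by rw [← h.cc_eq, h.card_norm], h3, h4, h5, fun e => h6 (index_eq_one.1 e),
    by rw [← h.cc_eq, h.card_norm, card_mul_index]⟩

theorem np_of {p M e0 : ℕ} (hp : p.Prime) (hM : p ≠ 2 ∧ ¬ p ∣ M ∧ 0 < M ∧ M ≤ 5600000)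
    (hd : Nat.card G ∣ p * M) (hr : p ∣ Nat.card G)
    (h : ∀ n ∈ kdv M, n % p = 1 → n ≠ 1 → ∀ e < p, e ∣ p - 1 → e ≠ 1 → e * n ∣ M →
      e = e0 ∧ e * n = M) : Nat.card G = p * M ∧ NP G p e0 := by
  have := Fact.mk hp
  obtain ⟨h2, h3, h0, h4⟩ := hM
  have hsq : ¬ p * p ∣ Nat.card G := fun e => h3 (Nat.dvd_of_mul_dvd_mul_left hp.pos (e.trans hd))
  have key : ∀ x : G, orderOf x = p → Nat.card G = p * M ∧ cc x = p ∧
      Nat.card (normalizer (zpowers x : Set G)) = p * e0 := fun x hx => by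
    obtain ⟨e, X, n, a1, a2, a3, a4, a5, a6, a7⟩ := np_arith hna hp h2 hsq hx
    have b1 : X * (e * n) ∣ M := Nat.dvd_of_mul_dvd_mul_left hp.pos (by
      rw [← mul_assoc, ← mul_assoc, a7]; exact hd)
    have b2 : e * n ∣ M := (Dvd.intro_left _ rfl).trans b1
    obtain ⟨rfl, b3⟩ := h n (mem_kdv h0 h4 ((Dvd.intro_left _ rfl).trans b2)) a5 a6 e
      (by have := Nat.le_of_dvd (by have := hp.two_le; omega) a3; have := hp.two_le; omega) a3 a4 b2
    obtain rfl : X = 1 := by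
      rw [b3] at b1
      exact Nat.eq_one_of_dvd_one ((Nat.mul_dvd_mul_iff_right h0).1 (by rwa [one_mul]))
    rw [mul_one] at a1 a2 a7
    exact ⟨by rw [← a7, mul_assoc, b3], a1, a2⟩
  obtain ⟨x, hx⟩ := exists_prime_orderOf_dvd_card' p hr
  exact ⟨(key x hx).1, fun y hy => (key y hy).2⟩

theorem np7 (hd : Nat.card G ∣ 5663616) (hr : 43 ∣ Nat.card G) :
    Nat.card G = 5663616 ∧ NP G 43 3 :=
  np_of hna (M := 131712) (by norm_num) (by norm_num) hd hr (by decide +kernel)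

theorem np9 (hd : Nat.card G ∣ 42573600) (hr : 73 ∣ Nat.card G) :
    Nat.card G = 42573600 ∧ NP G 73 3 :=
  np_of hna (M := 583200) (by norm_num) (by norm_num) hd hr (by decide +kernel)

theorem np23 (hd : Nat.card G ∣ 6072) (hr : 23 ∣ Nat.card G) : Nat.card G = 6072 ∧ NP G 23 11 :=
  np_of hna (M := 264) (by norm_num) (by norm_num) hd hr (by decide +kernel)

theorem np47 (hd : Nat.card G ∣ 51888) (hr : 47 ∣ Nat.card G) : Nat.card G = 51888 ∧ NP G 47 23 :=
  np_of hna (M := 1104) (by norm_num) (by norm_num) hd hr (by decide +kernel)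

theorem np81 (hd : Nat.card G ∣ 265680) (hr : 41 ∣ Nat.card G) : Nat.card G = 265680 ∧ NP G 41 2 :=
  np_of hna (M := 6480) (by norm_num) (by norm_num) hd hr (by decide +kernel)

omit hna in
theorem k25 : ∀ N ∈ kdv 7800, N % 52 = 0 →
    killA N 13 13 (if N = 7800 then [(2, 1)] else []) = true := by decide +kernel

theorem np25 (hd : Nat.card G ∣ 7800) (hr : 13 ∣ Nat.card G) : Nat.card G = 7800 ∧ NP G 13 2 := by
  have := Fact.mk (by norm_num : Nat.Prime 13)
  have hN : Nat.card G ≤ 5600000 := (Nat.le_of_dvd (by norm_num) hd).trans (by norm_num)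
  have key : ∀ x : G, orderOf x = 13 → Nat.card G = 7800 ∧ cc x = 13 ∧
      Nat.card (normalizer (zpowers x : Set G)) = 13 * 2 := fun x hx => by
    obtain ⟨e, X, T, h⟩ := exists_KD hna hN (p := 13) (by norm_num) (by norm_num) (by norm_num)
      (fun e => by have := e.trans hd; norm_num at this) hx
    have := h.mem_of hna (by norm_num) (by norm_num) hN hr (k25 _ (mem_kdv (by norm_num) (by norm_num) hd)
      (by have := four_dvd hna; omega))
    split_ifs at this with e1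
    · obtain ⟨rfl, rfl⟩ : e = 2 ∧ X = 1 := by simpa using this
      exact ⟨e1, h.ccx, h.nrm⟩
    · cases this
  obtain ⟨x, hx⟩ := exists_prime_orderOf_dvd_card' 13 hr
  exact ⟨(key x hx).1, fun y hy => (key y hy).2⟩

end Cfsg.Agent.U45
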