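import Cfsg.Agent.U45.Defs

/-!
# Reduction to a simple group
-/

set_option autoImplicit false
set_option maxRecDepth 100000

namespace Cfsg.Agent.U45

open Subgroup Cfsg.Agent.Local Cfsg.Agent.M11 Cfsg.Agent.Char Cfsg.Agent.Zass Cfsg.Agent.Small

variable {G : Type*} [Group G] [Finite G]

theorem pairs_spec : ∀ t ∈ pairs, t.2.Prime ∧ t.2 ≠ 2 ∧ t.2 ∣ t.1 ∧ ¬ t.2 ∣ t.1 / t.2 ∧ 0 < t.1 ∧
    t.1 < 2 ^ 26 ∧ t.1 ∣ Nat.factorial 73 ∧ ∀ q < 74, q.Prime → ∀ j < 26, q ^ (j + 1) ∣ t.1 →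
      q ^ (j + 1) % t.2 ≠ 1 := by
  decide +kernel

theorem cent_of {N r : ℕ} (h : (N, r) ∈ pairs) (hG : Nat.card G = N) {x : G} (hx : orderOf x = r)
    {R : Subgroup G} [R.Normal] (hR : (Nat.card R).Coprime r) : R ≤ centralizer {x} :=
  le_of_forall_exists_isSylowIn_le fun q hq hd => by
    obtain ⟨hr, -, -, -, h0, hN, hf, hs⟩ := pairs_spec _ h
    dsimp only at hr h0 hN hf hs
    have := Fact.mk hq
    obtain ⟨T, h1, h2⟩ := exists_invariant_isSylowIn (le_normalizer_of_normal' (zpowers x) R)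
      (by rw [Nat.card_zpowers, hx]; exact hR.symm) (Or.inl (isSolvable_zpowers x)) q
    refine ⟨T, h1, ?_⟩
    obtain ⟨b, hb⟩ := h1.isPGroup.exists_card_eq
    obtain ⟨d, hd'⟩ := card_dvd_of_le (inf_le_left : T ⊓ centralizer {x} ≤ T)
    obtain ⟨j, -, rfl⟩ := (Nat.dvd_prime_pow hq).1 (hb ▸ Dvd.intro_left _ hd'.symm)
    obtain ⟨i, -, hi⟩ := (Nat.dvd_prime_pow hq).1 (hb ▸ Dvd.intro _ hd'.symm)
    have h3 := card_modEq_cent hr hx (h2 (mem_zpowers x))
    rw [hd', hi] at h3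
    have h4 : q ^ j ≡ 1 [MOD r] := Nat.ModEq.cancel_left_of_coprime
      ((Nat.Coprime.coprime_dvd_left hd hR).symm.pow_right i) (by rwa [mul_one])
    rcases j with _ | j
    · exact inf_eq_left.1 (eq_of_le_of_card_ge inf_le_left (by rw [hd']; simp))
    have h5 : q ^ (j + 1) ∣ N :=
      ((Dvd.intro_left _ hd'.symm).trans (card_subgroup_dvd_card T)).trans hG.dvd
    have h6 : j + 1 < 26 := (Nat.pow_lt_pow_iff_right (by norm_num : 1 < 2)).1
      (((Nat.pow_le_pow_left hq.two_le _).trans (Nat.le_of_dvd h0 h5)).trans_lt hN)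
    have h7 : q ≤ 73 := hq.dvd_factorial.1 (((dvd_pow_self q j.succ_ne_zero).trans h5).trans hf)
    exact absurd (Eq.trans h4 (Nat.mod_eq_of_lt hr.one_lt)) (hs q (by omega) hq j (by omega) h5)

theorem nn_of_rho {N r : ℕ} (h : (N, r) ∈ pairs) (hG : Nat.card G = N) (hρ : Rho G r) : NN G r :=
  fun x hx hn => by
    obtain ⟨hr, -, h1, h2, -⟩ := pairs_spec _ h
    have := Fact.mk hr
    exact ne_one_of_orderOf_eq_prime hr hx (zpowers_eq_bot.1
      (hρ.eq_bot hr (hG.trans (Nat.mul_div_cancel' h1).symm) h2 (isPGroup_zpowers_of_orderOf_eq hx)))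

theorem red {N r : ℕ} (h : (N, r) ∈ pairs) (hG : Nat.card G = N) (hn : NN G r) :
    ∃ M : Subgroup (G ⧸ pPrimeCore r G), M.Normal ∧ IsSimpleGroup M ∧ ¬ IsMulCommutative M ∧
      r ∣ Nat.card M ∧ Nat.card M ∣ N ∧ (Nat.card M = N → Nonempty (G ≃* M)) := by
  obtain ⟨hp, -, hd, hm, -⟩ := pairs_spec _ h
  dsimp only at hp hd hm
  have hG' : Nat.card G = r * (N / r) := hG.trans (Nat.mul_div_cancel' hd).symm
  have := Fact.mk hp
  obtain ⟨x, hx⟩ := exists_prime_orderOf_dvd_card' (G := G) r (hG ▸ hd)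
  have hc := cent_of h hG hx (R := pPrimeCore r G) (coprime_card_pPrimeCore r)
  set R := pPrimeCore r G
  have h1 : ∀ u ∈ R, u ^ r = 1 → u = 1 := fun u hr e => eq_one_of_pow_eq_one_of_coprime
    (coprime_card_pPrimeCore r) (orderOf_dvd_iff_pow_eq_one.1 (orderOf_dvd_card_of_mem hr)) e
  have hxp : x ^ r = 1 := hx ▸ pow_orderOf_eq_one x
  have h2 : orderOf (x : G ⧸ R) = r := orderOf_eq_prime (by rw [← QuotientGroup.mk_pow, hxp]; rfl)
    fun e => ne_one_of_orderOf_eq_prime hp hx (h1 x ((QuotientGroup.eq_one_iff x).1 e) hxp)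
  have hs := simple_closure hp (fun e => hm (Nat.dvd_of_mul_dvd_mul_left hp.pos
    (hG' ▸ e.trans (card_quotient_dvd_card R)))) (pPrimeCore_quotient_eq_bot r) h2
  have hxM : (x : G ⧸ R) ∈ normalClosure {(x : G ⧸ R)} := subset_normalClosure rfl
  have d2 := card_subgroup_dvd_card (normalClosure {(x : G ⧸ R)})
  have d3 := card_quotient_dvd_card R
  refine ⟨_, inferInstance, hs, fun hab => ?_, h2.symm.dvd.trans (orderOf_dvd_card_of_mem hxM),
    hG ▸ d2.trans d3, fun h4 => ?_⟩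
  · refine hn x hx (normal_of_forall_mem_normalizer fun g =>
      mem_normalizer_of_conj_mem fun n hn => ?_)
    obtain ⟨i, rfl⟩ := hn
    rw [← conj_zpow]
    refine zpow_mem ?_ i
    have h4 := ((normal_of_isMulCommutative
      (zpowers (⟨x, hxM⟩ : normalClosure {(x : G ⧸ R)}))).eq_bot_or_eq_top).resolve_left (by
        rw [zpowers_eq_bot]
        exact fun e => ne_one_of_orderOf_eq_prime hp h2 (congrArg Subtype.val e))
    obtain ⟨k, hk⟩ := h4.ge (mem_top ⟨(g : G ⧸ R) * x * (g : G ⧸ R)⁻¹,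
      Normal.conj_mem inferInstance _ hxM _⟩)
    have h5 : (x ^ k)⁻¹ * (g * x * g⁻¹) ∈ R := QuotientGroup.eq.1 (by
      simpa using congrArg Subtype.val hk)
    have h6 : Commute (x ^ k) ((x ^ k)⁻¹ * (g * x * g⁻¹)) :=
      (Commute.zpow_right (mem_centralizer_singleton_iff.1 (hc h5)) k).symm
    have h7 := h6.mul_pow r
    rw [mul_inv_cancel_left, conj_pow, hxp, ← zpow_natCast, ← zpow_mul, mul_comm k, zpow_mul,
      zpow_natCast, hxp, one_zpow, one_mul, mul_one, mul_inv_cancel] at h7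
    exact inv_mul_eq_one.1 (h1 _ h5 h7.symm) ▸ zpow_mem (mem_zpowers x) k
  have h6 : Function.Bijective (QuotientGroup.mk' R) :=
    (QuotientGroup.mk'_surjective _).bijective_of_nat_card_le
      (hG.trans_le (h4.ge.trans (Nat.le_of_dvd Nat.card_pos d2)))
  have h7 : normalClosure {(x : G ⧸ R)} = ⊤ := eq_top_of_card_eq _
    (Nat.dvd_antisymm d2 (d3.trans (hG.trans h4.symm).dvd))
  exact ⟨((MulEquiv.ofBijective _ h6).trans topEquiv.symm).trans (MulEquiv.subgroupCongr h7.symm)⟩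

omit [Finite G] in
theorem nn_of_simple [IsSimpleGroup G] {r : ℕ} (hr : r.Prime) (h : Nat.card G ≠ r) : NN G r :=
  fun x hx hn => by
    rcases hn.eq_bot_or_eq_top with e | e
    · rw [zpowers_eq_bot.1 e, orderOf_one] at hx
      exact hr.one_lt.ne hx
    · exact h (by rw [← card_top, ← e, Nat.card_zpowers, hx])

omit [Finite G] in
theorem NN.of_equiv {H : Type*} [Group H] {r : ℕ} (h : NN H r) (e : G ≃* H) : NN G r :=
  fun x hx hn => h (e x) (by rw [MulEquiv.orderOf_eq, hx]) (by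
    have := hn.map e.toMonoidHom e.surjective
    rwa [MonoidHom.map_zpowers] at this)

theorem nn_psl2 {F : Type*} [Field F] [Fintype F] (hF : 3 < Fintype.card F) {r : ℕ} (hr : r.Prime) :
    NN (Matrix.ProjectiveSpecialLinearGroup (Fin 2) F) r := by
  have := Matrix.ProjectiveSpecialLinearGroup.rank_two_simple (F := F)
    (by rw [Nat.card_eq_fintype_card]; exact hF)
  refine nn_of_simple hr fun e => ?_
  have h := PSL2Rec.card_psl2 (F := F)
  rw [e] at h
  obtain ⟨n, hn⟩ : ∃ n, Fintype.card F = n + 4 := ⟨Fintype.card F - 4, by omega⟩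
  rw [hn, (by omega : n + 4 - 1 = n + 3)] at h
  have h1 : Nat.gcd 2 (n + 3) ∣ 2 := Nat.gcd_dvd_left _ _
  have h2 : (n + 4) * (n + 3) * (n + 4 + 1) ∣ 2 * r := h ▸ Nat.mul_dvd_mul_right h1 r
  have h3 : ∀ a, a ∣ 2 * r → 3 ≤ a → r ∣ a := fun a ha h3 => by
    by_contra h4
    have := Nat.le_of_dvd two_pos ((hr.coprime_iff_not_dvd.2 h4).symm.dvd_of_dvd_mul_right ha)
    omega
  have h4 := h3 (n + 4) (((dvd_mul_right _ _).mul_right _).trans h2) (by omega)
  have h5 := h3 (n + 3) (((dvd_mul_left _ _).mul_right _).trans h2) (by omega)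
  have h6 : r ∣ 1 := (Nat.dvd_add_right h5).1 h4
  exact hr.one_lt.ne' (Nat.dvd_one.1 h6)

end Cfsg.Agent.U45
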