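import Cfsg.Agent.U45.Defs
import Cfsg.Agent.Three.Main
import Cfsg.Agent.Zass.SzId
import Cfsg.Agent.Suzuki.Star
import Cfsg.Agent.Suzuki.Simple

/-!
# The two small Suzuki groups: recognition by order, a character of degree `q² + 1`
-/

set_option autoImplicit false

namespace Cfsg.Agent.U45

open Subgroup Cfsg.Agent.Char Cfsg.Agent.Zass Cfsg.Agent.M11 Cfsg.Agent.Small

variable {G : Type*} [Group G] [Finite G]

theorem suzZ_rho {k : ℕ} (h : CIT.SuzZ G k) : Rho G ((2 ^ (2 * k + 1)) ^ 2 + 1) := by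
  obtain ⟨Ω, _, _, _, D, -, hK, -⟩ := h
  have := Fintype.ofFinite G
  obtain ⟨μ, hμ⟩ : ∃ μ : IrrCharacter D.H, μ.1 ≠ 1 := by
    by_contra hn
    push Not at hn
    have h1 := sum_deg_sq_inKer (⊥ : Subgroup D.H)
    rw [irrQ_bot, index_bot] at h1
    have h2 : (Finset.univ : Finset (IrrCharacter D.H)) = {⟨1, irr_one⟩} :=
      Finset.eq_singleton_iff_unique_mem.2 ⟨Finset.mem_univ _, fun x _ => Subtype.ext (hn x)⟩
    have h3 : deg (1 : D.H → ℂ) = 1 := deg_of_eq (by simp)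
    rw [h2, Finset.sum_singleton, h3] at h1
    have := D.nontriv
    omega
  refine ⟨_, D.eta_irr μ.2 hμ, ?_⟩
  have h1 := irr_apply_one_of_comm μ.2
  have h2 : deg (D.eta μ.1) = (2 ^ (2 * k + 1)) ^ 2 + 1 := by
    apply deg_of_eq
    rw [← hK]
    simp [ZData.eta, D.indH_one, h1, D.pi_one]
  rw [h2]

theorem suz_k {k m n : ℕ} (hk : 1 ≤ k)
    (hn : n = (2 ^ (2 * k + 1)) ^ 2 * ((2 ^ (2 * k + 1)) ^ 2 + 1) * (2 ^ (2 * k + 1) - 1))
    (hm : (m = 1 ∧ n ∣ 29120) ∨ (m = 2 ∧ n ∣ 32537600)) : k = m := by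
  have h3 : k < 3 := by
    by_contra h3
    have h4 : 2 ^ 7 ∣ 2 ^ (2 * k + 1) := pow_dvd_pow 2 (by omega)
    have h5 : (2 ^ 7) ^ 2 ∣ n := by
      rw [hn, mul_assoc]
      exact (pow_dvd_pow_of_dvd h4 2).trans (dvd_mul_right _ _)
    rcases hm with ⟨-, h⟩ | ⟨-, h⟩ <;> exact absurd (h5.trans h) (by norm_num)
  subst hn
  interval_cases k <;> rcases hm with ⟨rfl, h⟩ | ⟨rfl, h⟩ <;> first | rfl | exact absurd h (by norm_num)

theorem suzZ_of_simple [IsSimpleGroup G] (hna : ¬ IsMulCommutative G) {m : ℕ}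
    (hm : (m = 1 ∧ Nat.card G ∣ 29120) ∨ (m = 2 ∧ Nat.card G ∣ 32537600)) : CIT.SuzZ G m := by
  obtain ⟨k, hk, h⟩ := Three.suz G hna fun h3 => by
    rcases hm with ⟨-, h⟩ | ⟨-, h⟩ <;> exact absurd (h3.trans h) (by norm_num)
  exact suz_k hk h.card hm ▸ h

theorem sz_of_simple [IsSimpleGroup G] (hna : ¬ IsMulCommutative G) {m : ℕ}
    (hm : (m = 1 ∧ Nat.card G ∣ 29120) ∨ (m = 2 ∧ Nat.card G ∣ 32537600))
    {F : Type*} [Field F] [Fintype F] (hF : Fintype.card F = 2 ^ (2 * m + 1)) :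
    Nonempty (G ≃* ↥(Cfsg.Lie.Sz F (2 ^ (m + 1)))) := by
  have : Suzuki.IsSz F m := ⟨by rcases hm with ⟨rfl, -⟩ | ⟨rfl, -⟩ <;> norm_num, hF⟩
  exact Zass.SuzZ.equiv (suzZ_of_simple hna hm) F

theorem sz_data {m N r : ℕ} (hm : (m = 1 ∧ N = 29120 ∧ r = 13) ∨ (m = 2 ∧ N = 32537600 ∧ r = 41))
    {F : Type*} [Field F] [Fintype F] (hF : Fintype.card F = 2 ^ (2 * m + 1)) :
    Nat.card ↥(Cfsg.Lie.Sz F (2 ^ (m + 1))) = N ∧ Rho ↥(Cfsg.Lie.Sz F (2 ^ (m + 1))) r := by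
  have : Suzuki.IsSz F m := ⟨by rcases hm with ⟨rfl, -⟩ | ⟨rfl, -⟩ <;> norm_num, hF⟩
  have e := Suzuki.szEquiv F (m := m)
  have hc : Nat.card (Cfsg.Sz F m) = N := by
    rw [Suzuki.card_Sz, hF]
    rcases hm with ⟨rfl, rfl, -⟩ | ⟨rfl, rfl, -⟩ <;> norm_num
  have hfin : Finite (Cfsg.Sz F m) := Nat.finite_of_card_ne_zero (by
    rw [hc]; rcases hm with ⟨-, rfl, -⟩ | ⟨-, rfl, -⟩ <;> norm_num)
  refine ⟨(Nat.card_congr e.toEquiv).symm.trans hc, ?_⟩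
  have hna : ¬ IsMulCommutative (Cfsg.Sz F m) := fun h => by
    let _ : CommGroup (Cfsg.Sz F m) := { mul_comm := fun a b => h.is_comm.comm a b }
    have hp := (IsSimpleGroup.prime_card (α := Cfsg.Sz F m))
    rw [hc] at hp
    rcases hm with ⟨-, rfl, -⟩ | ⟨-, rfl, -⟩ <;> exact absurd hp (by norm_num)
  have h := suzZ_rho (suzZ_of_simple hna (m := m) (by
    rw [hc]; rcases hm with ⟨rfl, rfl, -⟩ | ⟨rfl, rfl, -⟩ <;> simp))
  obtain ⟨χ, h1, h2⟩ := h.of_surj e.symm.toMonoidHom e.symm.surjective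
  refine ⟨χ, h1, Dvd.dvd.trans ?_ h2⟩
  rcases hm with ⟨rfl, -, rfl⟩ | ⟨rfl, -, rfl⟩ <;> norm_num

end Cfsg.Agent.U45
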