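import Cfsg.Agent.U45.B0

set_option autoImplicit false

namespace Cfsg.Agent.U45

open Cfsg.Agent.M11 Cfsg.Agent.Small

def tabA : List (ℕ × List (ℕ × ℕ)) := [(76, []), (152, []), (228, []), (304, []), (456, []), (532, []), (608, []), (684, []), (912, []), (1064, []), (1216, []), (1368, []), (1596, []), (1824, []), (2052, []), (2128, []), (2432, []), (2736, []), (3192, []), (3648, []), (4104, []), (4256, []), (4788, []), (4864, []), (5472, []), (6156, []), (6384, []), (7296, []), (8208, []), (8512, []), (9576, []), (9728, []), (10944, []), (12312, []), (12768, []), (14364, []), (14592, []), (16416, []), (17024, []), (19152, []), (21888, []), (24624, []), (25536, []), (28728, []), (29184, []), (32832, []), (34048, []), (38304, []), (43092, []), (43776, []), (49248, []), (51072, []), (57456, []), (65664, []), (68096, []), (76608, []), (86184, []), (87552, []), (98496, []), (102144, []), (114912, [(6, 1)]), (131328, []), (153216, []), (172368, [(9, 1)]), (196992, []), (204288, []), (229824, [(6, 2)]), (262656, []), (306432, []), (344736, [(6, 3), (18, 1)]), (393984,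 []), (459648, [(6, 4)]), (612864, []), (689472, [(6, 6), (18, 2)]), (787968, []), (919296, [(6, 8)]), (1378944, [(6, 12), (9, 8), (18, 4)]), (1838592, [(6, 16)]), (2757888, [(6, 24), (9, 16), (18, 8)]), (5515776, [(6, 48), (9, 32), (18, 16), (3, 1)])]

set_option maxRecDepth 100000 in
theorem tabA0 : ((tabA.drop 0).take 50).all (fun t => fN t.1 fun N => killA N 19 19 t.2) = true := by
  decide +kernel

set_option maxRecDepth 100000 in
theorem tabA1 : ((tabA.drop 50).take 12).all (fun t => fN t.1 fun N => killA N 19 19 t.2) = true := by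
  decide +kernel

set_option maxRecDepth 100000 in
theorem tabA2 : ((tabA.drop 62).take 8).all (fun t => fN t.1 fun N => killA N 19 19 t.2) = true := by
  decide +kernel

set_option maxRecDepth 100000 in
theorem tabA3 : ((tabA.drop 70).take 4).all (fun t => fN t.1 fun N => killA N 19 19 t.2) = true := by
  decide +kernel

set_option maxRecDepth 100000 in
theorem tabA4 : ((tabA.drop 74).take 3).all (fun t => fN t.1 fun N => killA N 19 19 t.2) = true := by
  decide +kernel

set_option maxRecDepth 100000 in
theorem tabA5 : ((tabA.drop 77).take 2).all (fun t => fN t.1 fun N => killA N 19 19 t.2) = true := by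
  decide +kernel

set_option maxRecDepth 100000 in
theorem tabA6 : ((tabA.drop 79).take 1).all (fun t => fN t.1 fun N => killA N 19 19 t.2) = true := by
  decide +kernel

theorem tabA_split : tabA = (tabA.drop 0).take 50 ++ ((tabA.drop 50).take 12 ++ ((tabA.drop 62).take 8 ++ ((tabA.drop 70).take 4 ++ ((tabA.drop 74).take 3 ++ ((tabA.drop 77).take 2 ++ ((tabA.drop 79).take 1)))))) := by
  decide +kernel

theorem tabA_all {t : ℕ × List (ℕ × ℕ)} (ht : t ∈ tabA) : killA t.1 19 19 t.2 = true := by
  have h0 := tabA0
  have h1 := tabA1
  have h2 := tabA2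
  have h3 := tabA3
  have h4 := tabA4
  have h5 := tabA5
  have h6 := tabA6
  simp only [List.all_eq_true, fN_eq] at h0 h1 h2 h3 h4 h5 h6
  rw [tabA_split] at ht
  simp only [List.mem_append] at ht
  rcases ht with h | h | h | h | h | h | h
  exacts [h0 _ h, h1 _ h, h2 _ h, h3 _ h, h4 _ h, h5 _ h, h6 _ h]

theorem tabA_mem : ∀ N ∈ kdv 5515776, N % 76 = 0 → ∃ t ∈ tabA, t.1 = N := by
  decide +kernel

end Cfsg.Agent.U45
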