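import Cfsg.Agent.U45.UCa

/-!
# The principal block with inertial index two or three
-/

set_option autoImplicit false
set_option linter.unusedSectionVars false

namespace Cfsg.Agent.U45

open Finset Subgroup Cfsg.Agent.Char Cfsg.Agent.Block Cfsg.Agent.Zass Cfsg.Agent.Local
  Cfsg.Agent.M11 Cfsg.Agent.Small

variable {G : Type*} [Group G]

namespace Core

variable [Fintype G] {r : ℕ} {x : G} {D : List (ℕ × ℤ)} {θ : G → ℂ}
  {T : Finset (IrrCharacter G)} {a : IrrCharacter G → ℤ} (h : Core G r x D θ T a)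
include h

theorem memD {χ : IrrCharacter G} (hχ : χ ∈ T) : (deg χ.1, a χ) ∈ D := by
  rw [← Multiset.mem_coe, ← h.tab]
  exact Multiset.mem_map_of_mem _ hχ

theorem ex (P : ℕ × ℤ → Bool) {y : ℕ × ℤ} (hP : D.filter P = [y]) :
    ∃ χ ∈ T, (deg χ.1, a χ) = y ∧ ∀ χ' ∈ T, P (deg χ'.1, a χ') = true → χ' = χ := by
  classical
  have h1 : (T.filter fun χ => P (deg χ.1, a χ) = true).card = 1 := by
    have h2 := congrArg (fun M : Multiset (ℕ × ℤ) => (M.filter fun z => P z = true).card) h.tab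
    simp only [Multiset.filter_map, Multiset.card_map, Multiset.filter_coe, Multiset.coe_card,
      Bool.decide_eq_true] at h2
    rw [show (List.filter (fun b => P b) D) = [y] from hP] at h2
    exact h2
  obtain ⟨χ, h2⟩ := card_eq_one.1 h1
  have h3 := mem_filter.1 (h2.ge (mem_singleton_self χ))
  refine ⟨χ, h3.1, ?_, fun χ' h4 h5 => mem_singleton.1 (h2.le (mem_filter.2 ⟨h4, h5⟩))⟩
  exact List.mem_singleton.1 (hP ▸ List.mem_filter.2 ⟨h.memD h3.1, h3.2⟩)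

theorem exd {d : ℕ} {c : ℤ} (hP : D.filter (fun z => z.1 == d) = [(d, c)]) (h1 : d ≠ 1)
    (h2 : ¬ r ∣ d) : ∃ χ ∈ T, deg χ.1 = d ∧ a χ = c ∧
      ∀ χ' : IrrCharacter G, deg χ'.1 = d → χ' = χ := by
  obtain ⟨χ, h3, h4, h5⟩ := h.ex _ hP
  refine ⟨χ, h3, congrArg Prod.fst h4, congrArg Prod.snd h4, fun χ' e => h5 χ' (h.mem χ' ?_
    (e ▸ h2)) (by simp [e])⟩
  intro e'
  rw [e', deg_one] at e
  exact h1 e.symm

theorem rho (hD : 1 + (D.map fun z => z.1 * z.1).sum ≠ Nat.card G) : Rho G r := by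
  classical
  by_contra e
  have h1 : insert ⟨1, irr_one⟩ T = univ := eq_univ_of_forall fun χ => by
    rw [mem_insert]
    by_cases h2 : χ.1 = 1
    · exact Or.inl (Subtype.ext h2)
    · exact Or.inr (h.mem χ h2 fun e' => e ⟨χ.1, χ.2, e'⟩)
  have h2 := sum_deg (G := G)
  rw [← h1, sum_insert (fun e => h.ne1 _ e rfl), deg_one] at h2
  have h3 := congrArg (fun M : Multiset (ℕ × ℤ) => (M.map fun z => z.1 * z.1).sum) h.tab
  simp only [Multiset.map_map, Multiset.map_coe, Multiset.sum_coe] at h3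
  exact hD (by rw [← h3, ← h2]; rfl)

theorem sum_eq [DecidableEq (IrrCharacter G)] {S : Finset (IrrCharacter G)} (hS : S ⊆ T)
    (h0 : ∀ χ ∈ T, χ ∉ S → a χ = 0) (F : IrrCharacter G → ℂ) :
    ∑ χ, (a χ : ℂ) * F χ = F ⟨1, irr_one⟩ + ∑ χ ∈ S, (a χ : ℂ) * F χ := by
  rw [← sum_subset (subset_univ (insert ⟨1, irr_one⟩ S)),
    sum_insert (fun e => h.ne1 _ (hS e) rfl), h.one, Int.cast_one, one_mul]
  intro χ _ h1
  rw [mem_insert, not_or] at h1
  by_cases h2 : χ ∈ T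
  · rw [h0 χ h2 h1.2]; simp
  · rw [h.out χ (fun e => h1.1 (Subtype.ext e)) h2]; simp

theorem apply (g : G) : θ g = ∑ χ : IrrCharacter G, (a χ : ℂ) * χ.1 g := by
  simp only [classFun_apply (gen_isClassFunction h.gen) g, h.inn]

end Core

theorem exists_nat_of {z : ℂ} (h1 : IsIntegral ℤ z) (h2 : 0 ≤ z.re) {A B : ℤ} (hA : A ≠ 0)
    (h : A * z = B) : ∃ m : ℕ, (m : ℤ) * A = B := by
  have hA' : (A : ℂ) ≠ 0 := Int.cast_ne_zero.2 hA
  have h3 : z = B / A := by rw [← h]; field_simp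
  obtain ⟨n, hn⟩ := CIT.exists_int_of_fixed h1 fun σ => by rw [h3]; simp
  rw [hn, Complex.intCast_re] at h2
  lift n to ℕ using (by exact_mod_cast h2)
  refine ⟨n, ?_⟩
  rw [hn, mul_comm] at h
  exact_mod_cast h

theorem uc_of [Finite G] [IsSimpleGroup G] (hna : ¬ IsMulCommutative G) {r N d1 d2 d3 : ℕ}
    (hr : r.Prime) (hN : Nat.card G = N) (hb : N ≤ 43000000 ∧ r ≠ 2 ∧ r ≤ 80 ∧ ¬ r * r ∣ N)
    (hd : r ∣ N) (h : NP G r 3) {D : List (ℕ × ℤ)} (hB : ucB N r 3 [D] = false)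
    (e1 : D.filter (fun z => z.1 == d1) = [(d1, -1)]) (e2 : D.filter (fun z => z.1 == d2) = [(d2, -1)])
    (e3 : D.filter (fun z => z.2 == 1) = [(d3, 1)])
    (e4 : ∀ z ∈ D, z.1 = d1 ∨ z.1 = d2 ∨ z.2 = 1 ∨ z.2 = 0)
    (e5 : d1 ≠ 1 ∧ d2 ≠ 1 ∧ ¬ r ∣ d1 ∧ ¬ r ∣ d2 ∧ d1 ≠ d2 ∧ r % 2 = 1)
    (e6 : 1 + (D.map fun z => z.1 * z.1).sum ≠ N) : ∃ χ St, UC G r d1 d2 d3 χ St := by
  classical
  have := Fintype.ofFinite G
  have := Fact.mk hr
  obtain ⟨n1, n2, n3, n4, n5, n6⟩ := e5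
  have hc : ∀ x : G, orderOf x = r → ∃ θ T a, Core G r x D θ T a := fun x hx => by
    obtain ⟨D', h1, h2⟩ := exists_core hna hr hN hb h hB hx
    rwa [List.mem_singleton.1 h1] at h2
  obtain ⟨x, hx⟩ := exists_prime_orderOf_dvd_card' (G := G) r (hN ▸ hd)
  obtain ⟨θ, T, a, C⟩ := hc x hx
  obtain ⟨α, α1, α2, α3, α4⟩ := C.exd e1 n1 n3
  obtain ⟨β, β1, β2, β3, β4⟩ := C.exd e2 n2 n4
  obtain ⟨γ, γ1, γ2, γ4⟩ := C.ex _ e3
  obtain ⟨γ2, γ3⟩ := Prod.ext_iff.1 γ2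
  simp only at γ2 γ3
  obtain ⟨χ, hχ⟩ := exists_int_fun α.2 fun θ h1 h2 => congrArg Subtype.val (α4 ⟨θ, h1⟩ (h2.trans α2))
  obtain ⟨St, hS⟩ := exists_int_fun β.2 fun θ h1 h2 => congrArg Subtype.val (β4 ⟨θ, h1⟩ (h2.trans β2))
  have hcc : ∀ x : G, orderOf x = r → cc x = r := fun x hx => (h x hx).1
  have hαβ : α ≠ β := fun e => n5 (by rw [← α2, ← β2, e])
  have hαγ : α ≠ γ := fun e => by rw [e, γ3] at α3; cases α3
  have hβγ : β ≠ γ := fun e => by rw [e, γ3] at β3; cases β3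
  have hsum : ∀ F : IrrCharacter G → ℂ, ∑ χ, (a χ : ℂ) * F χ = F ⟨1, irr_one⟩ - F α - F β + F γ :=
    fun F => by
      rw [C.sum_eq (S := {α, β, γ}) (by simp [insert_subset_iff, α1, β1, γ1]) (fun ξ h1 h2 => by
        simp only [mem_insert, mem_singleton, not_or] at h2
        rcases e4 _ (C.memD h1) with e | e | e | e
        · exact absurd (α4 ξ e) h2.1
        · exact absurd (β4 ξ e) h2.2.1
        · exact absurd (γ4 ξ h1 (by simpa using e)) h2.2.2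
        · exact e), sum_insert (by simp [hαβ, hαγ]), sum_pair hβγ, α3, β3, γ3]
      push_cast
      ring
  have hψ : ∀ g : G, ¬ r ∣ orderOf g → γ.1 g = ((χ g + St g - 1 : ℤ) : ℂ) := fun g hg => by
    have h1 := C.reg g ((Nat.Prime.coprime_iff_not_dvd hr).2 hg).symm
    rw [C.apply, hsum fun ξ => ξ.1 g, hχ, hS] at h1
    push_cast
    simp only [Pi.one_apply] at h1
    linear_combination h1
  have p1 : (d1 : ℂ) ≠ 0 := Nat.cast_ne_zero.2 (α2 ▸ irr_deg_pos α.2).ne'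
  have p2 : (d2 : ℂ) ≠ 0 := Nat.cast_ne_zero.2 (β2 ▸ irr_deg_pos β.2).ne'
  have p3 : (d3 : ℂ) ≠ 0 := Nat.cast_ne_zero.2 (γ2 ▸ irr_deg_pos γ.2).ne'
  have hm : ∀ u v : G, ¬ r ∣ orderOf u → ¬ r ∣ orderOf v →
      (d1 * d2 * d3 : ℂ) * ∑ g, θ (g * u * g⁻¹ * v) =
        ((Nat.card G * cm d1 d2 d3 (χ u) (St u) (χ v) (St v) : ℤ) : ℂ) := fun u v hu hv => by
    rw [classFun_sum_conj_mul (gen_isClassFunction C.gen)]
    simp only [C.inn]
    rw [hsum fun ξ => ξ.1 u * ξ.1 v / ξ.1 1, hψ u hu, hψ v hv, irr_deg α.2, irr_deg β.2, irr_deg γ.2,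
      α2, β2, γ2, hχ, hS, cm]
    push_cast
    simp only [Pi.one_apply]
    field_simp
  have i1 : IsIrrCharacter G fun g => (χ g : ℂ) := hχ ▸ α.2
  have i2 : IsIrrCharacter G fun g => (St g : ℂ) := hS ▸ β.2
  refine ⟨χ, St, hr, hN ▸ hd, i1, i2, ?_, ?_, hcc, fun g hg => ?_, ⟨γ.1, γ.2, γ2, hψ⟩,
    fun θ h1 h2 => hS ▸ congrArg Subtype.val (β4 ⟨θ, h1⟩ h2), fun u v h1 hu hv => ?_,
    fun u hu => ?_, C.rho (hN ▸ e6)⟩
  · have := irr_deg α.2
    rw [α2, hχ] at this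
    exact Int.cast_injective (α := ℂ) (this.trans (Int.cast_natCast _).symm)
  · have := irr_deg β.2
    rw [β2, hS] at this
    exact Int.cast_injective (α := ℂ) (this.trans (Int.cast_natCast _).symm)
  · obtain ⟨θ', T', a', C'⟩ := hc g (ord_eq hcc hg)
    obtain ⟨α', -, q2, q3, -⟩ := C'.exd e1 n1 n3
    obtain ⟨β', -, s2, s3, -⟩ := C'.exd e2 n2 n4
    obtain rfl := α4 α' q2
    obtain rfl := β4 β' s2
    have h1 := C'.val α' (by rw [q3]; decide) fun ξ e => α4 ξ (e.trans α2)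
    have h2 := C'.val β' (by rw [s3]; decide) fun ξ e => β4 ξ (e.trans β2)
    rw [hχ, q3] at h1
    rw [hS, s3] at h2
    exact ⟨Int.cast_injective (α := ℂ) h1, Int.cast_injective (α := ℂ) h2⟩
  · obtain ⟨s, hs⟩ := sum_conj_mul hr hcc (gen_isClassFunction C.gen) C.reg (v := v) h1 hu
    refine exists_nat_of (z := ∑ g ∈ s, θ (g * u * g⁻¹ * v))
      (IsIntegral.sum _ fun g _ => gen_isIntegral C.gen _)
      (by rw [Complex.re_sum]; exact sum_nonneg fun g _ => C.pos _) (A := (cc u * cc v) * (d1 * d2 * d3))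
      ?_ ?_ |>.imp fun m e => (mul_assoc _ _ _).trans e
    · have := cc_pos u
      have := cc_pos v
      have q1 : d1 ≠ 0 := by exact_mod_cast p1
      have q2 : d2 ≠ 0 := by exact_mod_cast p2
      have q3 : d3 ≠ 0 := by exact_mod_cast p3
      positivity
    · rw [← hm u v hu hv, hs]
      push_cast
      ring
  · have h2 : ¬ r ∣ orderOf u := fun e => by
      rw [hu, Nat.prime_dvd_prime_iff_eq hr Nat.prime_two] at e
      omega
    have h1 := hm u u h2 h2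
    rw [C.inv (by rw [(h x hx).2, Nat.mul_mod, n6]) u hu, mul_zero, eq_comm, Int.cast_eq_zero,
      mul_eq_zero] at h1
    exact h1.resolve_left (Nat.cast_ne_zero.2 Nat.card_pos.ne')

theorem ud_of [Finite G] [IsSimpleGroup G] (hna : ¬ IsMulCommutative G) {r N q : ℕ}
    (hr : r.Prime) (hN : Nat.card G = N) (hb : N ≤ 43000000 ∧ r ≠ 2 ∧ r ≤ 80 ∧ ¬ r * r ∣ N)
    (hd : r ∣ N) (h : NP G r 2) {D : List (ℕ × ℤ)} (hB : ucB N r 2 [D] = false)
    (e2 : D.filter (fun z => z.1 == q) = [(q, -1)])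
    (e3 : D.filter (fun z => z.2 == 1) = [(q - 1, 1)])
    (e4 : ∀ z ∈ D, z.1 = q ∨ z.2 = 1 ∨ z.2 = 0) (e5 : q ≠ 1 ∧ ¬ r ∣ q)
    (e6 : 1 + (D.map fun z => z.1 * z.1).sum ≠ N) : ∃ St, UD G r q St := by
  classical
  have := Fintype.ofFinite G
  have := Fact.mk hr
  obtain ⟨n2, n4⟩ := e5
  have hc : ∀ x : G, orderOf x = r → ∃ θ T a, Core G r x D θ T a := fun x hx => by
    obtain ⟨D', h1, h2⟩ := exists_core hna hr hN hb h hB hx
    rwa [List.mem_singleton.1 h1] at h2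
  obtain ⟨x, hx⟩ := exists_prime_orderOf_dvd_card' (G := G) r (hN ▸ hd)
  obtain ⟨θ, T, a, C⟩ := hc x hx
  obtain ⟨β, β1, β2, β3, β4⟩ := C.exd e2 n2 n4
  obtain ⟨γ, γ1, γ2, γ4⟩ := C.ex _ e3
  obtain ⟨γ2, γ3⟩ := Prod.ext_iff.1 γ2
  simp only at γ2 γ3
  obtain ⟨St, hS⟩ := exists_int_fun β.2 fun θ h1 h2 => congrArg Subtype.val (β4 ⟨θ, h1⟩ (h2.trans β2))
  have hcc : ∀ x : G, orderOf x = r → cc x = r := fun x hx => (h x hx).1
  have hβγ : β ≠ γ := fun e => by rw [e, γ3] at β3; cases β3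
  have hψ : ∀ g : G, ¬ r ∣ orderOf g → γ.1 g = ((St g - 1 : ℤ) : ℂ) := fun g hg => by
    have h1 := C.reg g ((Nat.Prime.coprime_iff_not_dvd hr).2 hg).symm
    rw [C.apply, C.sum_eq (S := {β, γ}) (by simp [insert_subset_iff, β1, γ1]) (fun ξ h1 h2 => by
        simp only [mem_insert, mem_singleton, not_or] at h2
        rcases e4 _ (C.memD h1) with e | e | e
        · exact absurd (β4 ξ e) h2.1
        · exact absurd (γ4 ξ h1 (by simpa using e)) h2.2
        · exact e), sum_pair hβγ, β3, γ3, hS] at h1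
    push_cast at h1 ⊢
    simp only [Pi.one_apply] at h1
    linear_combination h1
  refine ⟨St, hr, hN ▸ hd, hS ▸ β.2, ?_, hcc, fun g hg => ?_, ⟨γ.1, γ.2, γ2, hψ⟩, C.rho (hN ▸ e6)⟩
  · have := irr_deg β.2
    rw [β2, hS] at this
    exact Int.cast_injective (α := ℂ) (this.trans (Int.cast_natCast _).symm)
  · obtain ⟨θ', T', a', C'⟩ := hc g (ord_eq hcc hg)
    obtain ⟨β', -, s2, s3, -⟩ := C'.exd e2 n2 n4
    obtain rfl := β4 β' s2
    have h2 := C'.val β' (by rw [s3]; decide) fun ξ e => β4 ξ (e.trans β2)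
    rw [hS, s3] at h2
    exact Int.cast_injective (α := ℂ) h2

def tb3 (q t : ℕ) : List (ℕ × ℤ) := (q * (q - 1), -1) :: (q ^ 3, -1) :: ((q + 1) ^ 2 * (q - 1), 1) ::
  List.replicate t ((q + 1) ^ 2 * (q - 1), 0)

def tb2 (q t : ℕ) : List (ℕ × ℤ) := (q, -1) :: (q - 1, 1) :: List.replicate t (q - 1, 0)

theorem ucB7 : ucB 5663616 43 3 [tb3 7 13] = false := by decide +kernel
theorem ucB8 : ucB 5515776 19 3 [tb3 8 5] = false := by decide +kernel
theorem ucB9 : ucB 42573600 73 3 [tb3 9 23] = false := by decide +kernel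
theorem ucB25 : ucB 7800 13 2 [tb2 25 5] = false := by decide +kernel
theorem ucB81 : ucB 265680 41 2 [tb2 81 19] = false := by decide +kernel

variable [Finite G]

theorem exists_UC [IsSimpleGroup G] (hna : ¬ IsMulCommutative G) {q r : ℕ}
    (hq : (q = 7 ∧ r = 43 ∧ Nat.card G = 5663616) ∨ (q = 8 ∧ r = 19 ∧ Nat.card G = 5515776) ∨
      (q = 9 ∧ r = 73 ∧ Nat.card G = 42573600)) (h : NP G r 3) :
    ∃ χ St, UC G r (q * (q - 1)) (q ^ 3) ((q + 1) ^ 2 * (q - 1)) χ St := by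
  rcases hq with ⟨rfl, rfl, e⟩ | ⟨rfl, rfl, e⟩ | ⟨rfl, rfl, e⟩
  · exact uc_of hna (by norm_num) e (by decide) (by decide) h ucB7 (by decide) (by decide) (by decide)
      (by decide) (by decide) (by decide)
  · exact uc_of hna (by norm_num) e (by decide) (by decide) h ucB8 (by decide) (by decide) (by decide)
      (by decide) (by decide) (by decide)
  · exact uc_of hna (by norm_num) e (by decide) (by decide) h ucB9 (by decide) (by decide) (by decide)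
      (by decide) (by decide) (by decide)

theorem exists_UD [IsSimpleGroup G] (hna : ¬ IsMulCommutative G) {q r : ℕ}
    (hq : (q = 25 ∧ r = 13 ∧ Nat.card G = 7800) ∨ (q = 81 ∧ r = 41 ∧ Nat.card G = 265680))
    (h : NP G r 2) : ∃ St, UD G r q St := by
  rcases hq with ⟨rfl, rfl, e⟩ | ⟨rfl, rfl, e⟩
  · exact ud_of hna (by norm_num) e (by decide) (by decide) h ucB25 (by decide) (by decide) (by decide)
      (by decide) (by decide)
  · exact ud_of hna (by norm_num) e (by decide) (by decide) h ucB81 (by decide) (by decide) (by decide)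
      (by decide) (by decide)

end Cfsg.Agent.U45
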